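import Cfsg.Agent.Lib.MinDeg.SLn.Ops
import Cfsg.Agent.Lib.Linalg.Transvection

/-!
# The rank one weight projection `P = L e_a e_b` and the transvections that absorb it
-/

set_option autoImplicit false
set_option linter.unusedSectionVars false
set_option linter.unusedSimpArgs false
set_option linter.unusedVariables false

namespace Cfsg.Agent.Lib.MinDeg.SLn

open Matrix Cfsg.Agent.Lib.MinIndex.SLTv

variable {ι F : Type*} [Fintype ι] [DecidableEq ι] [Field F] [Fintype F] [DecidableEq F]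
variable {U : Type*} [AddCommGroup U] [Module ℂ U] [FiniteDimensional ℂ U]

/-- Coordinate vectors. -/
abbrev bas (i : ι) : ι → F := Pi.single i 1

theorem dot_bas (y : ι → F) (i : ι) : y ⬝ᵥ bas i = y i := by
  simp [bas, dotProduct_single]

theorem bas_dot (y : ι → F) (i : ι) : bas i ⬝ᵥ y = y i := by
  simp [bas, single_one_dotProduct]

theorem bas_apply_ne {i j : ι} (h : j ≠ i) : (bas i : ι → F) j = 0 := Pi.single_eq_of_ne h 1

@[simp] theorem bas_apply_self (i : ι) : (bas i : ι → F) i = 1 := Pi.single_eq_same i 1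

local notation "tr" => LinearMap.trace ℂ U

theorem tr_cycle3 (A B C : Module.End ℂ U) : tr (A * B * C) = tr (C * A * B) := by
  rw [LinearMap.trace_mul_comm, ← mul_assoc]

/-- An idempotent has natural trace, and it vanishes iff the trace vanishes. -/
theorem idem_trace {P : Module.End ℂ U} (hP : P * P = P) :
    tr P = (Module.finrank ℂ (LinearMap.range P) : ℂ) := by
  have h : IsIdempotentElem P := hP
  exact (LinearMap.IsIdempotentElem.isProj_range _ h).trace

theorem idem_eq_zero {P : Module.End ℂ U} (hP : P * P = P) (h0 : tr P = 0) : P = 0 :=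
  LinearMap.IsIdempotentElem.eq_zero_of_trace_eq_zero hP h0

/-- For a rank one idempotent `P`, the compression `P X P` is a scalar multiple of `P`. -/
theorem sandwich {P : Module.End ℂ U} (hP : P * P = P) (ht : tr P = 1) (X : Module.End ℂ U) :
    P * X * P = tr (P * X) • P := by
  have h1 : Module.finrank ℂ (LinearMap.range P) = 1 := by
    have := idem_trace hP
    rw [ht] at this
    exact_mod_cast this.symm
  obtain ⟨v, hv0, hv⟩ := finrank_eq_one_iff'.mp h1
  have hPw : ∀ w : LinearMap.range P, P w.1 = w.1 := by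
    rintro ⟨_, z, rfl⟩
    show P (P z) = P z
    rw [← Module.End.mul_apply, hP]
  obtain ⟨μ, hμ⟩ := hv ⟨P (X v.1), ⟨_, rfl⟩⟩
  have hμ' : μ • v.1 = P (X v.1) := congrArg Subtype.val hμ
  have key : P * X * P = μ • P := by
    ext z
    obtain ⟨c, hc⟩ := hv ⟨P z, ⟨_, rfl⟩⟩
    have hc' : c • v.1 = P z := congrArg Subtype.val hc
    simp only [Module.End.mul_apply, LinearMap.smul_apply]
    rw [← hc', map_smul, map_smul, ← hμ', smul_comm]
  have h2 : tr (P * X) = μ := by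
    have e : tr (P * X) = tr (P * X * P) := by
      rw [tr_cycle3, hP]
    rw [e, key, map_smul, ht, smul_eq_mul, mul_one]
  rw [h2, key]

variable {ρ : SpecialLinearGroup ι F →* Module.End ℂ U} {ψ : AddChar F ℂ}

theorem rho_inv_mul (g : SpecialLinearGroup ι F) : ρ g⁻¹ * ρ g = 1 := by
  rw [← map_mul, inv_mul_cancel, map_one]

theorem rho_mul_inv (g : SpecialLinearGroup ι F) : ρ g * ρ g⁻¹ = 1 := by
  rw [← map_mul, mul_inv_cancel, map_one]

/-- Conjugates of traces. -/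
theorem tr_conj (g : SpecialLinearGroup ι F) (A : Module.End ℂ U) :
    tr (ρ g * A * ρ g⁻¹) = tr A := by
  rw [tr_cycle3, mul_assoc, ← mul_assoc (ρ g⁻¹), rho_inv_mul, one_mul]

section P

variable (ρ ψ) in
/-- The projection `P`. -/
noncomputable abbrev PP (a b : ι) : Module.End ℂ U := L ρ ψ (bas a) (bas b)

variable (ρ ψ) in
/-- The matrix coefficient `f g = tr (P ρ(g))`. -/
noncomputable def ff (a b : ι) (g : SpecialLinearGroup ι F) : ℂ := tr (PP ρ ψ a b * ρ g)

variable {a b : ι}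

/-- The pointwise stabilizer of `e_a, e_b`. -/
def R0 (a b : ι) (g : SpecialLinearGroup ι F) : Prop :=
  gv g (bas a) = bas a ∧ gv g (bas b) = bas b

theorem R0_one : R0 a b (1 : SpecialLinearGroup ι F) := ⟨gv_one _, gv_one _⟩

theorem R0_mul {g h : SpecialLinearGroup ι F} (hg : R0 a b g) (hh : R0 a b h) : R0 a b (g * h) := by
  refine ⟨?_, ?_⟩
  · rw [gv_mul, hh.1, hg.1]
  · rw [gv_mul, hh.2, hg.2]

theorem R0_inv {g : SpecialLinearGroup ι F} (hg : R0 a b g) : R0 a b g⁻¹ := by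
  refine ⟨?_, ?_⟩
  · conv_lhs => rw [← hg.1]
    rw [gv_inv_gv]
  · conv_lhs => rw [← hg.2]
    rw [gv_inv_gv]

theorem R0_tv (z φ : ι → F) (h : φ ⬝ᵥ z = 0) (ha : φ a = 0) (hb : φ b = 0) :
    R0 a b (tv z φ h) := by
  refine ⟨?_, ?_⟩
  · rw [gv_tv, dot_bas, ha, zero_smul, add_zero]
  · rw [gv_tv, dot_bas, hb, zero_smul, add_zero]

theorem PP_idem : PP ρ ψ a b * PP ρ ψ a b = PP ρ ψ a b := L_idem _ _

theorem comm_of_R0 {g : SpecialLinearGroup ι F} (hg : R0 a b g) :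
    ρ g * PP ρ ψ a b = PP ρ ψ a b * ρ g := by
  have h := L_conj (ρ := ρ) (ψ := ψ) g (bas a) (bas b)
  rw [hg.1, hg.2] at h
  calc ρ g * PP ρ ψ a b = ρ g * PP ρ ψ a b * (ρ g⁻¹ * ρ g) := by
        rw [rho_inv_mul, mul_one]
    _ = (ρ g * PP ρ ψ a b * ρ g⁻¹) * ρ g := by rw [mul_assoc, mul_assoc, mul_assoc]
    _ = PP ρ ψ a b * ρ g := by rw [h]

variable (htr : LinearMap.trace ℂ U (PP ρ ψ a b) = (1 : ℂ))
include htr

/-- If `g` commutes with `P` it acts on it as a scalar. -/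
theorem act_of_comm {g : SpecialLinearGroup ι F} (hg : ρ g * PP ρ ψ a b = PP ρ ψ a b * ρ g) :
    ρ g * PP ρ ψ a b = ff ρ ψ a b g • PP ρ ψ a b := by
  have h := sandwich (PP_idem (ρ := ρ) (ψ := ψ) (a := a) (b := b)) htr (ρ g)
  rw [ff, ← h, mul_assoc, hg, ← mul_assoc, PP_idem]

theorem ff_mul_of_comm {g h : SpecialLinearGroup ι F} (hg : ρ g * PP ρ ψ a b = PP ρ ψ a b * ρ g)
    (hh : ρ h * PP ρ ψ a b = PP ρ ψ a b * ρ h) :
    ff ρ ψ a b (g * h) = ff ρ ψ a b g * ff ρ ψ a b h := by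
  have e : ρ (g * h) * PP ρ ψ a b = (ff ρ ψ a b g * ff ρ ψ a b h) • PP ρ ψ a b := by
    rw [map_mul, mul_assoc, act_of_comm htr hh, mul_smul_comm, act_of_comm htr hg, smul_smul,
      mul_comm]
  have e2 : ff ρ ψ a b (g * h) = tr (ρ (g * h) * PP ρ ψ a b) := by
    rw [ff, LinearMap.trace_mul_comm]
  rw [e2, e, map_smul, htr, smul_eq_mul, mul_one]

theorem ff_one : ff ρ ψ a b 1 = 1 := by
  rw [ff, map_one, mul_one, htr]

theorem ff_inv_mul {g : SpecialLinearGroup ι F} (hg : R0 a b g) :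
    ff ρ ψ a b g⁻¹ * ff ρ ψ a b g = 1 := by
  rw [← ff_mul_of_comm htr (comm_of_R0 (R0_inv hg)) (comm_of_R0 hg), inv_mul_cancel, ff_one htr]

theorem ff_ne_zero {g : SpecialLinearGroup ι F} (hg : R0 a b g) : ff ρ ψ a b g ≠ 0 := by
  intro h
  have := ff_inv_mul htr hg
  rw [h, mul_zero] at this
  exact zero_ne_one this

omit htr in
/-- `f` is invariant under conjugation by elements commuting with `P`. -/
theorem ff_conj {k : SpecialLinearGroup ι F} (hk : ρ k * PP ρ ψ a b = PP ρ ψ a b * ρ k)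
    (g : SpecialLinearGroup ι F) : ff ρ ψ a b (k * g * k⁻¹) = ff ρ ψ a b g := by
  have e : PP ρ ψ a b * ρ (k * g * k⁻¹) = ρ k * (PP ρ ψ a b * ρ g) * ρ k⁻¹ := by
    rw [map_mul, map_mul, ← mul_assoc, ← mul_assoc, ← hk, mul_assoc (ρ k)]
  rw [ff, e, tr_conj]
  rfl

/-- `f = 1` gives absorption. -/
theorem absorb_of_ff {g : SpecialLinearGroup ι F} (hg : R0 a b g) (h1 : ff ρ ψ a b g = 1) :
    ρ g * PP ρ ψ a b = PP ρ ψ a b := by
  rw [act_of_comm htr (comm_of_R0 hg), h1, one_smul]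

/-- A commutator computation: `tv z φ` dies when there are auxiliary `z₁`, `φ₁`. -/
theorem ff_tv_of_aux (hab : a ≠ b) (z z₁ φ φ₁ : ι → F) (h : φ ⬝ᵥ z = 0) (h₁ : φ ⬝ᵥ z₁ = 0)
    (ha : φ a = 0) (hb : φ b = 0) (ha₁ : φ₁ a = 0) (hb₁ : φ₁ b = 0) (hz : φ₁ ⬝ᵥ z = 0)
    (hz₁ : φ₁ ⬝ᵥ z₁ = 1) : ff ρ ψ a b (tv z φ h) = 1 := by
  have hk : R0 a b (tv z φ₁ hz) := R0_tv _ _ _ ha₁ hb₁
  have ht₁ : R0 a b (tv z₁ φ h₁) := R0_tv _ _ _ ha hb
  have ht : R0 a b (tv z φ h) := R0_tv _ _ _ ha hb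
  have e1 := tv_conj_tv z φ₁ z₁ φ hz h₁
  have e2 := tv_mul_left z₁ z φ h₁ h
  have e3 : tv z₁ φ h₁ * tv z φ h = tv z φ₁ hz * tv z₁ φ h₁ * (tv z φ₁ hz)⁻¹ := by
    rw [e1, e2]
    apply tv_congr
    simp [hz₁, h]
  have e4 := ff_conj (comm_of_R0 (ρ := ρ) (ψ := ψ) hk) (tv z₁ φ h₁)
  rw [← e3, ff_mul_of_comm htr (comm_of_R0 ht₁) (comm_of_R0 ht)] at e4
  have e5 := ff_ne_zero htr ht₁
  exact mul_left_cancel₀ e5 (by rw [e4, mul_one])

/-- Dimension version of `ff_tv_of_aux`. -/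
theorem ff_tv_of_small (hab : a ≠ b) (z φ : ι → F) (h : φ ⬝ᵥ z = 0)
    (ha : φ a = 0) (hb : φ b = 0) (S : Submodule F (ι → F)) (hzS : z ∈ S)
    (haS : (bas a : ι → F) ∈ S) (hbS : (bas b : ι → F) ∈ S)
    (hS : Module.finrank F S + 1 < Fintype.card ι) : ff ρ ψ a b (tv z φ h) = 1 := by
  classical
  let T : (ι → F) →ₗ[F] F :=
    { toFun := fun y => φ ⬝ᵥ y
      map_add' := fun y y' => dotProduct_add _ _ _
      map_smul' := fun c y => by simp [dotProduct_smul] }
  have h1 := LinearMap.finrank_range_add_finrank_ker T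
  have h2 : Module.finrank F (LinearMap.range T) ≤ 1 := by
    have := Submodule.finrank_le (LinearMap.range T)
    simpa using this
  rw [Module.finrank_fintype_fun_eq_card] at h1
  have hnot : ¬ LinearMap.ker T ≤ S := by
    intro hle
    have := Submodule.finrank_mono hle
    omega
  obtain ⟨z₁, hz₁, hz₁S⟩ := SetLike.not_le_iff_exists.mp hnot
  have h₁ : φ ⬝ᵥ z₁ = 0 := hz₁
  obtain ⟨φ₁, hφ₁, hφ₁u⟩ := Cfsg.Agent.Lib.MinIndex.Dual.exists_dot hz₁S
  refine ff_tv_of_aux htr hab z z₁ φ φ₁ h h₁ ha hb ?_ ?_ ?_ ?_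
  · have := hφ₁ _ haS
    rwa [bas_dot] at this
  · have := hφ₁ _ hbS
    rwa [bas_dot] at this
  · rw [dotProduct_comm]
    exact hφ₁ _ hzS
  · rw [dotProduct_comm]
    exact hφ₁u

omit htr in
/-- Conjugating an elementary transvection by a diagonal matrix. -/
theorem diag_conj_root {i j : ι} (hij : i ≠ j) (τ : SpecialLinearGroup ι F) (d : ι → F)
    (hd0 : ∀ k, d k ≠ 0) (hτ : (τ : Matrix ι ι F) = diagonal d) (t : F) :
    τ * SpecialLinearGroup.transvection hij t * τ⁻¹ =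
      SpecialLinearGroup.transvection hij (d i * t * (d j)⁻¹) := by
  rw [mul_inv_eq_iff_eq_mul]
  apply sl_eq
  rw [coe_mul', coe_mul', hτ]
  change diagonal d * Matrix.transvection i j t = Matrix.transvection i j _ * diagonal d
  have h := Cfsg.Agent.Lib.Linalg.Transvection.diagonal_mul_transvection_mul_diagonal hij d
    (fun k => (d k)⁻¹) (fun k => mul_inv_cancel₀ (hd0 k)) t
  rw [← h, mul_assoc (diagonal d * _), diagonal_mul_diagonal]
  have : (fun k => (d k)⁻¹ * d k) = fun _ => (1 : F) := by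
    funext k
    exact inv_mul_cancel₀ (hd0 k)
  rw [this, diagonal_one, mul_one]

omit htr in
theorem root_mul {i j : ι} (hij : i ≠ j) (s t : F) :
    SpecialLinearGroup.transvection hij s * SpecialLinearGroup.transvection hij t =
      SpecialLinearGroup.transvection hij (s + t) := by
  apply sl_eq
  rw [coe_mul']
  change Matrix.transvection i j s * Matrix.transvection i j t = Matrix.transvection i j (s + t)
  exact Matrix.transvection_mul_transvection_same i j hij s t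

omit htr in
theorem R0_root {i j : ι} (hij : i ≠ j) (hja : j ≠ a) (hjb : j ≠ b) (t : F) :
    R0 a b (SpecialLinearGroup.transvection hij t) := by
  rw [transvection_eq_tv]
  apply R0_tv
  · exact Pi.single_eq_of_ne (Ne.symm hja) 1
  · exact Pi.single_eq_of_ne (Ne.symm hjb) 1

/-- The torus argument. -/
theorem ff_root_eq_one {i j : ι} (hij : i ≠ j) (hja : j ≠ a) (hjb : j ≠ b)
    (τ : SpecialLinearGroup ι F) (d : ι → F) (hd0 : ∀ k, d k ≠ 0)
    (hτ : (τ : Matrix ι ι F) = diagonal d) (hc : ρ τ * PP ρ ψ a b = PP ρ ψ a b * ρ τ)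
    (hμ : d i * (d j)⁻¹ ≠ 1) (t : F) :
    ff ρ ψ a b (SpecialLinearGroup.transvection hij t) = 1 := by
  set μ := d i * (d j)⁻¹ with hμdef
  have hR := R0_root (a := a) (b := b) (F := F) hij hja hjb
  have h1 : ∀ t', ff ρ ψ a b (SpecialLinearGroup.transvection hij (μ * t')) =
      ff ρ ψ a b (SpecialLinearGroup.transvection hij t') := by
    intro t'
    have e := ff_conj hc (SpecialLinearGroup.transvection hij t')
    rw [diag_conj_root hij τ d hd0 hτ t'] at e
    rw [← e]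
    congr 2
    rw [hμdef]
    ring
  set t' := t / (μ - 1) with ht'
  have hμ1 : μ - 1 ≠ 0 := sub_ne_zero.mpr hμ
  have e1 : t = μ * t' + (-t') := by
    rw [ht']
    field_simp
    ring
  have e2 := ff_mul_of_comm htr (comm_of_R0 (hR (μ * t'))) (comm_of_R0 (hR (-t')))
  rw [root_mul, ← e1, h1] at e2
  rw [e2, ← ff_mul_of_comm htr (comm_of_R0 (hR t')) (comm_of_R0 (hR (-t'))), root_mul,
    add_neg_cancel, SpecialLinearGroup.transvection_coeff_zero, ff_one htr]

omit htr in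
theorem gv_diag (τ : SpecialLinearGroup ι F) (d : ι → F) (hτ : (τ : Matrix ι ι F) = diagonal d)
    (k : ι) : gv τ (bas k) = d k • bas k := by
  rw [gv, hτ]
  ext r
  rw [mulVec_diagonal]
  by_cases h : r = k
  · subst h
    simp
  · simp [bas_apply_ne h]

/-- The hypothesis on `(n, q)`. -/
def GoodSL (ι F : Type*) [Fintype ι] [Field F] : Prop :=
  (Fintype.card ι = 3 ∧ ∃ s : F, s ≠ 0 ∧ s ^ 3 ≠ 1) ∨
    (Fintype.card ι = 4 ∧ ∃ s : F, s ≠ 0 ∧ s ^ 2 ≠ 1) ∨ 5 ≤ Fintype.card ι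

omit htr in
theorem dot_bas_zero {φ : ι → F} {i : ι} (h : φ i = 0) : φ ⬝ᵥ bas i = 0 := by
  rw [dot_bas, h]

omit htr in
theorem finrank_span_fin {n : ℕ} (v : Fin n → ι → F) :
    Module.finrank F (Submodule.span F (Set.range v)) ≤ n := by
  have := finrank_range_le_card (R := F) v
  simpa [Set.finrank] using this

/-- Case `n ≥ 5`. -/
theorem ff_tv_five (hab : a ≠ b) (h5 : 5 ≤ Fintype.card ι) (z φ : ι → F) (h : φ ⬝ᵥ z = 0)
    (ha : φ a = 0) (hb : φ b = 0) : ff ρ ψ a b (tv z φ h) = 1 := by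
  refine ff_tv_of_small htr hab z φ h ha hb (Submodule.span F (Set.range ![z, bas a, bas b]))
    (Submodule.subset_span ⟨0, rfl⟩) (Submodule.subset_span ⟨1, rfl⟩)
    (Submodule.subset_span ⟨2, rfl⟩) ?_
  have := finrank_span_fin ![z, bas a, bas b]
  omega

/-- For `n ≥ 4`, transvections with centre in the plane `⟨e_a, e_b⟩` absorb. -/
theorem ff_tv_four_plane (hab : a ≠ b) (h4 : 4 ≤ Fintype.card ι) (z φ : ι → F) (h : φ ⬝ᵥ z = 0)
    (ha : φ a = 0) (hb : φ b = 0) (hz : z = z a • bas a + z b • bas b) :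
    ff ρ ψ a b (tv z φ h) = 1 := by
  refine ff_tv_of_small htr hab z φ h ha hb (Submodule.span F (Set.range ![bas a, bas b]))
    ?_ (Submodule.subset_span ⟨0, rfl⟩) (Submodule.subset_span ⟨1, rfl⟩) ?_
  · rw [hz]
    exact Submodule.add_mem _ (Submodule.smul_mem _ _ (Submodule.subset_span ⟨0, rfl⟩))
      (Submodule.smul_mem _ _ (Submodule.subset_span ⟨1, rfl⟩))
  · have := finrank_span_fin ![(bas a : ι → F), bas b]
    omega

omit htr in
theorem li_three {x y z : ι → F} (h : ∀ α β γ : F, α • x + β • y + γ • z = 0 → α = 0 ∧ β = 0 ∧ γ = 0) :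
    LinearIndependent F ![x, y, z] := by
  rw [Fintype.linearIndependent_iff]
  intro g hg i
  rw [Fin.sum_univ_three] at hg
  obtain ⟨h0, h1, h2⟩ := h _ _ _ hg
  fin_cases i
  · exact h0
  · exact h1
  · exact h2

omit htr in
theorem li_two {x y : ι → F} (h : ∀ α β : F, α • x + β • y = 0 → α = 0 ∧ β = 0) :
    LinearIndependent F ![x, y] := by
  rw [Fintype.linearIndependent_iff]
  intro g hg i
  rw [Fin.sum_univ_two] at hg
  obtain ⟨h0, h1⟩ := h _ _ hg
  fin_cases i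
  · exact h0
  · exact h1

/-- Case `n = 4`. -/
theorem ff_tv_four (hab : a ≠ b) (h4 : Fintype.card ι = 4) (hs : ∃ s : F, s ≠ 0 ∧ s ^ 2 ≠ 1)
    (z φ : ι → F) (h : φ ⬝ᵥ z = 0) (ha : φ a = 0) (hb : φ b = 0) : ff ρ ψ a b (tv z φ h) = 1 := by
  classical
  have hcard : (Finset.univ \ {a, b} : Finset ι).card = 2 := by
    rw [Finset.card_sdiff_of_subset (Finset.subset_univ _), Finset.card_univ, h4,
      Finset.card_pair hab]
  obtain ⟨c, d, hcd, huniv⟩ := Finset.card_eq_two.mp hcard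
  have hmem : ∀ j, j ≠ a → j ≠ b → j = c ∨ j = d := by
    intro j hja hjb
    have : j ∈ (Finset.univ \ {a, b} : Finset ι) := by simp [hja, hjb]
    rw [huniv] at this
    simpa using this
  have hcm : c ∈ (Finset.univ \ {a, b} : Finset ι) := by rw [huniv]; simp
  have hdm : d ∈ (Finset.univ \ {a, b} : Finset ι) := by rw [huniv]; simp
  simp only [Finset.mem_sdiff, Finset.mem_univ, true_and, Finset.mem_insert, Finset.mem_singleton,
    not_or] at hcm hdm
  obtain ⟨hca, hcb⟩ := hcm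
  obtain ⟨hda, hdb⟩ := hdm
  set zb : ι → F := z a • bas a + z b • bas b with hzb
  set z' : ι → F := z - zb with hz'
  have hdzb : φ ⬝ᵥ zb = 0 := by
    rw [hzb, dotProduct_add, dotProduct_smul, dotProduct_smul, dot_bas, dot_bas, ha, hb]
    simp
  have hdz' : φ ⬝ᵥ z' = 0 := by
    rw [hz', dotProduct_sub, h, hdzb, sub_zero]
  have e : tv z φ h = tv zb φ hdzb * tv z' φ hdz' := by
    rw [tv_mul_left]
    apply tv_congr
    congr 1
    rw [hz']
    abel
  have r1 := R0_tv (a := a) (b := b) zb φ hdzb ha hb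
  have r2 := R0_tv (a := a) (b := b) z' φ hdz' ha hb
  rw [e, ff_mul_of_comm htr (comm_of_R0 r1) (comm_of_R0 r2)]
  have hzba : zb a = z a := by
    simp [hzb, bas_apply_ne hab]
  have hzbb : zb b = z b := by
    simp [hzb, bas_apply_ne hab.symm]
  have e1 : ff ρ ψ a b (tv zb φ hdzb) = 1 :=
    ff_tv_four_plane htr hab (by omega) zb φ hdzb ha hb (by rw [hzba, hzbb])
  rw [e1, one_mul]
  by_cases hz0 : z' = 0
  · have : tv z' φ hdz' = 1 := by
      apply sl_eq
      simp [hz0]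
    rw [this, ff_one htr]
  have hz'a : z' a = 0 := by
    simp [hz', hzba]
  have hz'b : z' b = 0 := by
    simp [hz', hzbb]
  have li : LinearIndependent F ![(bas a : ι → F), bas b, z'] := by
    apply li_three
    intro α β γ hc
    have ca := congrFun hc a
    have cb := congrFun hc b
    simp [hz'a, bas_apply_ne hab] at ca
    simp [hz'b, bas_apply_ne hab.symm] at cb
    subst ca cb
    simp only [zero_smul, zero_add] at hc
    refine ⟨rfl, rfl, (smul_eq_zero.mp hc).resolve_right hz0⟩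
  have li' : LinearIndependent F ![(bas a : ι → F), bas b, bas c] := by
    apply li_three
    intro α β γ hc
    have ca := congrFun hc a
    have cb := congrFun hc b
    have cc := congrFun hc c
    simp [bas_apply_ne hab, bas_apply_ne hab.symm, bas_apply_ne (Ne.symm hca), bas_apply_ne (Ne.symm hcb)] at ca cb
    simp [bas_apply_ne hca, bas_apply_ne hcb] at cc
    exact ⟨ca, cb, cc⟩
  obtain ⟨g₀, hg₀⟩ := Cfsg.Agent.Lib.Linalg.Bridge.exists_SL_of_linearIndependent li li'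
    (by simp [h4])
  have hg0a : gv g₀ (bas a) = bas a := hg₀ 0
  have hg0b : gv g₀ (bas b) = bas b := hg₀ 1
  have hg0z : gv g₀ z' = bas c := hg₀ 2
  have hR : R0 a b g₀ := ⟨hg0a, hg0b⟩
  have hRi := R0_inv hR
  set φ₀ : ι → F := vg φ g₀⁻¹ with hφ₀
  have hφ₀a : φ₀ a = 0 := by
    rw [← dot_bas φ₀ a, hφ₀, vg_dot_gv, hRi.1, dot_bas, ha]
  have hφ₀b : φ₀ b = 0 := by
    rw [← dot_bas φ₀ b, hφ₀, vg_dot_gv, hRi.2, dot_bas, hb]
  have hφ₀c : φ₀ c = 0 := by
    rw [← dot_bas φ₀ c, hφ₀, vg_dot_gv, ← hg0z, gv_inv_gv, hdz']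
  have hφ₀d : φ₀ = φ₀ d • bas d := by
    ext j
    by_cases hja : j = a
    · subst hja
      simp [hφ₀a, bas_apply_ne (Ne.symm hda)]
    by_cases hjb : j = b
    · subst hjb
      simp [hφ₀b, bas_apply_ne (Ne.symm hdb)]
    rcases hmem j hja hjb with rfl | rfl
    · simp [hφ₀c, bas_apply_ne hcd]
    · simp
  have hdot : φ₀ ⬝ᵥ gv g₀ z' = 0 := by
    rw [hφ₀, vg_inv_dot_gv, hdz']
  have e2 : g₀ * tv z' φ hdz' * g₀⁻¹ = SpecialLinearGroup.transvection hcd (φ₀ d) := by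
    rw [tv_conj', transvection_eq_tv]
    apply tv_congr
    rw [hg0z]
    conv_lhs => rw [← hφ₀, hφ₀d]
    ext i j
    simp [vecMulVec_apply, Pi.smul_apply]
    ring
  rw [← ff_conj (comm_of_R0 hR), e2]
  obtain ⟨s, hs0, hs2⟩ := hs
  have hτ := SpecialLinearGroup.diag2n_coe hcd s hs0
  refine ff_root_eq_one htr hcd (Ne.symm (Ne.symm hda)) hdb (SpecialLinearGroup.diag2n hcd s hs0) _ ?_ hτ
    (comm_of_R0 ⟨?_, ?_⟩) ?_ _
  · intro k
    by_cases hk : k = c
    · simp [hk, hs0]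
    · by_cases hk2 : k = d
      · simp [hk, hk2, hs0, hcd.symm]
      · simp [hk, hk2]
  · rw [gv_diag _ _ hτ]
    simp [Ne.symm hca, Ne.symm hda]
  · rw [gv_diag _ _ hτ]
    simp [Ne.symm hcb, Ne.symm hdb]
  · simp only [if_true, hcd.symm, if_false]
    rw [inv_inv]
    intro h1
    apply hs2
    rw [pow_two]
    exact h1

/-- A row `a` transvection of trivial weight. -/
theorem ff_row_a (z φ : ι → F) (hz : z = z a • bas a) (h : φ ⬝ᵥ z = 0) (ha : φ a = 0) (hb : φ b = 0) :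
    ff ρ ψ a b (tv z φ h) = 1 := by
  have h0 : (z a • φ) ⬝ᵥ bas a = 0 := by
    rw [smul_dotProduct, dot_bas, ha, smul_zero]
  have e : tv z φ h = tv (bas a) (z a • φ) h0 := by
    apply tv_congr
    conv_lhs => rw [hz]
    ext i j
    simp [vecMulVec_apply]
    ring
  have e1 := L_left (ρ := ρ) (ψ := ψ) (bas a) (bas b) (z a • φ) h0
  rw [smul_dotProduct, dot_bas, hb, smul_zero, AddChar.map_zero_eq_one, one_smul] at e1
  rw [ff, e, LinearMap.trace_mul_comm, e1, htr]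

/-- Case `n = 3`. -/
theorem ff_tv_three {c : ι} (hab : a ≠ b) (hac : a ≠ c) (hbc : b ≠ c) (h3 : Fintype.card ι = 3)
    (hs : ∃ s : F, s ≠ 0 ∧ s ^ 3 ≠ 1)
    (z φ : ι → F) (h : φ ⬝ᵥ z = 0) (ha : φ a = 0) (hb : φ b = 0) : ff ρ ψ a b (tv z φ h) = 1 := by
  classical
  have huniv : ({a, b, c} : Finset ι) = Finset.univ := by
    apply Finset.eq_univ_of_card
    rw [h3, Finset.card_eq_three.mpr ⟨a, b, c, hab, hac, hbc, rfl⟩]
  have hall : ∀ j, j = a ∨ j = b ∨ j = c := by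
    intro j
    have : j ∈ ({a, b, c} : Finset ι) := by rw [huniv]; exact Finset.mem_univ _
    simpa using this
  set κ := φ c with hκ
  have hφ : φ = κ • bas c := by
    ext j
    rcases hall j with rfl | rfl | rfl
    · simp [ha, bas_apply_ne hac]
    · simp [hb, bas_apply_ne hbc]
    · simp [hκ]
  by_cases hκ0 : κ = 0
  · have : tv z φ h = 1 := by
      apply sl_eq
      rw [coe_tv, hφ, hκ0]
      simp
    rw [this, ff_one htr]
  have hzc : z c = 0 := by
    rw [hφ, smul_dotProduct, bas_dot, smul_eq_mul] at h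
    exact (mul_eq_zero.mp h).resolve_left hκ0
  have hz : z = z a • bas a + z b • bas b := by
    ext j
    rcases hall j with rfl | rfl | rfl
    · simp [bas_apply_ne hab]
    · simp [bas_apply_ne hab.symm]
    · simp [hzc, bas_apply_ne hac.symm, bas_apply_ne hbc.symm]
  have h1 : φ ⬝ᵥ (z a • (bas a : ι → F)) = 0 := by
    rw [dotProduct_smul, dot_bas, ha, smul_zero]
  have h2 : φ ⬝ᵥ (z b • (bas b : ι → F)) = 0 := by
    rw [dotProduct_smul, dot_bas, hb, smul_zero]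
  have e : tv z φ h = tv (z a • bas a) φ h1 * tv (z b • bas b) φ h2 := by
    rw [tv_mul_left]
    apply tv_congr
    rw [← hz]
  rw [e, ff_mul_of_comm htr (comm_of_R0 (R0_tv _ _ _ ha hb)) (comm_of_R0 (R0_tv _ _ _ ha hb))]
  have e1 : ff ρ ψ a b (tv (z a • bas a) φ h1) = 1 :=
    ff_row_a htr _ _ (by simp [bas_apply_ne hab]) _ ha hb
  rw [e1, one_mul]
  have e2 : tv (z b • bas b) φ h2 = SpecialLinearGroup.transvection hbc (z b * κ) := by
    rw [transvection_eq_tv]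
    apply tv_congr
    rw [hφ]
    ext i j
    simp [vecMulVec_apply, Pi.smul_apply]
    ring
  rw [e2]
  obtain ⟨s, hs0, hs3⟩ := hs
  have hτ1 := SpecialLinearGroup.diag2n_coe hac s hs0
  have hτ2 := SpecialLinearGroup.diag2n_coe hbc s hs0
  set τ := SpecialLinearGroup.diag2n hac s hs0 * SpecialLinearGroup.diag2n hbc s hs0 with hτdef
  set d : ι → F := fun k => (if k = a then s else if k = c then s⁻¹ else 1) *
    (if k = b then s else if k = c then s⁻¹ else 1) with hd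
  have hτ : (τ : Matrix ι ι F) = diagonal d := by
    rw [hτdef, coe_mul']
    show (SpecialLinearGroup.diag2n hac s hs0).1 * (SpecialLinearGroup.diag2n hbc s hs0).1 = _
    rw [hτ1, hτ2, diagonal_mul_diagonal]
  have hda : d a = s := by simp [hd, hab, hac]
  have hdb : d b = s := by simp [hd, hab.symm, hbc]
  have hdc : d c = s⁻¹ * s⁻¹ := by simp [hd, hac.symm, hbc.symm]
  have hd0 : ∀ k, d k ≠ 0 := by
    intro k
    rcases hall k with rfl | rfl | rfl
    · rw [hda]; exact hs0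
    · rw [hdb]; exact hs0
    · rw [hdc]; exact mul_ne_zero (inv_ne_zero hs0) (inv_ne_zero hs0)
  have hc : ρ τ * PP ρ ψ a b = PP ρ ψ a b * ρ τ := by
    have h0 := L_conj (ρ := ρ) (ψ := ψ) τ (bas a) (bas b)
    rw [gv_diag _ _ hτ, gv_diag _ _ hτ, hda, hdb, L_smul_smul _ _ _ hs0] at h0
    calc ρ τ * PP ρ ψ a b = ρ τ * PP ρ ψ a b * (ρ τ⁻¹ * ρ τ) := by
          rw [rho_inv_mul, mul_one]
      _ = (ρ τ * PP ρ ψ a b * ρ τ⁻¹) * ρ τ := by rw [mul_assoc, mul_assoc, mul_assoc]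
      _ = PP ρ ψ a b * ρ τ := by rw [h0]
  refine ff_root_eq_one htr hbc (Ne.symm hac) (Ne.symm hbc) τ d hd0 hτ hc ?_ _
  rw [hdb, hdc]
  intro h1
  apply hs3
  have : s * (s⁻¹ * s⁻¹)⁻¹ = s ^ 3 := by
    field_simp
  rw [← this, h1]

/-- The absorption theorem. -/
theorem ff_tv_eq_one {c : ι} (hab : a ≠ b) (hac : a ≠ c) (hbc : b ≠ c) (hgood : GoodSL ι F)
    (z φ : ι → F) (h : φ ⬝ᵥ z = 0) (ha : φ a = 0) (hb : φ b = 0) : ff ρ ψ a b (tv z φ h) = 1 := by
  rcases hgood with ⟨h3, hs⟩ | ⟨h4, hs⟩ | h5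
  · exact ff_tv_three htr hab hac hbc h3 hs z φ h ha hb
  · exact ff_tv_four htr hab h4 hs z φ h ha hb
  · exact ff_tv_five htr hab h5 z φ h ha hb

theorem absorb_left {c : ι} (hab : a ≠ b) (hac : a ≠ c) (hbc : b ≠ c) (hgood : GoodSL ι F)
    (z φ : ι → F) (h : φ ⬝ᵥ z = 0) (ha : φ a = 0) (hb : φ b = 0) :
    ρ (tv z φ h) * PP ρ ψ a b = PP ρ ψ a b :=
  absorb_of_ff htr (R0_tv _ _ _ ha hb) (ff_tv_eq_one htr hab hac hbc hgood z φ h ha hb)

theorem absorb_right {c : ι} (hab : a ≠ b) (hac : a ≠ c) (hbc : b ≠ c) (hgood : GoodSL ι F)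
    (z φ : ι → F) (h : φ ⬝ᵥ z = 0) (ha : φ a = 0) (hb : φ b = 0) :
    PP ρ ψ a b * ρ (tv z φ h) = PP ρ ψ a b := by
  rw [← comm_of_R0 (R0_tv _ _ _ ha hb)]
  exact absorb_left htr hab hac hbc hgood z φ h ha hb

end P

end Cfsg.Agent.Lib.MinDeg.SLn
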