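import Cfsg.Agent.Lib.MinDeg.SLn.Absorb

/-!
# The value `tr (L x 0 * P) = 1 / q` for `x` outside the plane `⟨e_a, e_b⟩`
-/

set_option autoImplicit false
set_option linter.unusedSectionVars false
set_option linter.unusedSimpArgs false
set_option linter.unusedVariables false

namespace Cfsg.Agent.Lib.MinDeg.SLn

open Matrix Cfsg.Agent.Lib.MinIndex.SLTv

variable {ι F : Type*} [Fintype ι] [DecidableEq ι] [Field F] [Fintype F] [DecidableEq F]
variable {U : Type*} [AddCommGroup U] [Module ℂ U] [FiniteDimensional ℂ U]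

local notation "tr" => LinearMap.trace ℂ U

variable {ρ : SpecialLinearGroup ι F →* Module.End ℂ U} {ψ : AddChar F ℂ}

theorem GoodSL.three_le (h : GoodSL ι F) : 3 ≤ Fintype.card ι := by
  rcases h with ⟨h, _⟩ | ⟨h, _⟩ | h <;> omega

theorem li_bas {a b : ι} (hab : a ≠ b) : LinearIndependent F ![(bas a : ι → F), bas b] := by
  apply li_two
  intro α β hc
  have ca := congrFun hc a
  have cb := congrFun hc b
  simp [bas_apply_ne hab, bas_apply_ne hab.symm] at ca cb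
  exact ⟨ca, cb⟩

theorem exists_pair {a b : ι} (hab : a ≠ b) (h3 : 3 ≤ Fintype.card ι) {x u : ι → F}
    (hli : ∀ α β : F, α • x + β • u = 0 → α = 0 ∧ β = 0) :
    ∃ g : SpecialLinearGroup ι F, gv g (bas a) = x ∧ gv g (bas b) = u := by
  obtain ⟨g, hg⟩ := Cfsg.Agent.Lib.Linalg.Bridge.exists_SL_of_linearIndependent (li_bas hab)
    (li_two hli) (by simp; omega)
  exact ⟨g, hg 0, hg 1⟩

theorem L_eq_conj {a b : ι} {g : SpecialLinearGroup ι F} {x u : ι → F}
    (hx : gv g (bas a) = x) (hu : gv g (bas b) = u) :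
    L ρ ψ x u = ρ g * PP ρ ψ a b * ρ g⁻¹ := by
  rw [PP, L_conj, hx, hu]

theorem vg_vg_inv (φ : ι → F) (g : SpecialLinearGroup ι F) : vg (vg φ g) g⁻¹ = φ := by
  simp only [vg, vecMul_vecMul, coe_mul_inv, vecMul_one]

section main

variable {a b c : ι} (htr : LinearMap.trace ℂ U (PP ρ ψ a b) = (1 : ℂ)) (hab : a ≠ b) (hac : a ≠ c)
  (hbc : b ≠ c) (hgood : GoodSL ι F)
include htr hab hac hbc hgood

/-- Transporting the absorption to the other weight projections. -/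
theorem L_absorb {x u : ι → F} (hli : ∀ α β : F, α • x + β • u = 0 → α = 0 ∧ β = 0)
    (z φ : ι → F) (h : φ ⬝ᵥ z = 0) (hx : φ ⬝ᵥ x = 0) (hu : φ ⬝ᵥ u = 0) :
    ρ (tv z φ h) * L ρ ψ x u = L ρ ψ x u := by
  obtain ⟨g, hg1, hg2⟩ := exists_pair (F := F) hab hgood.three_le hli
  have h1 : vg φ g ⬝ᵥ gv g⁻¹ z = 0 := by
    rw [vg_dot_gv, gv_gv_inv, h]
  have ha : vg φ g a = 0 := by
    rw [← dot_bas (vg φ g) a, vg_dot_gv, hg1, hx]
  have hb : vg φ g b = 0 := by
    rw [← dot_bas (vg φ g) b, vg_dot_gv, hg2, hu]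
  have e : g * tv (gv g⁻¹ z) (vg φ g) h1 * g⁻¹ = tv z φ h := by
    rw [tv_conj']
    apply tv_congr
    rw [gv_gv_inv, vg_vg_inv]
  have e2 := absorb_left htr hab hac hbc hgood (gv g⁻¹ z) (vg φ g) h1 ha hb
  rw [L_eq_conj hg1 hg2, ← e, map_mul, map_mul]
  calc ρ g * ρ (tv (gv g⁻¹ z) (vg φ g) h1) * ρ g⁻¹ * (ρ g * PP ρ ψ a b * ρ g⁻¹)
      = ρ g * ρ (tv (gv g⁻¹ z) (vg φ g) h1) * (ρ g⁻¹ * ρ g) * PP ρ ψ a b * ρ g⁻¹ := by
        simp only [mul_assoc]
    _ = ρ g * (ρ (tv (gv g⁻¹ z) (vg φ g) h1) * PP ρ ψ a b) * ρ g⁻¹ := by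
        rw [rho_inv_mul, mul_one, mul_assoc (ρ g)]
    _ = ρ g * PP ρ ψ a b * ρ g⁻¹ := by rw [e2]

omit htr hab hac hbc hgood in
/-- The sum of `L x (α e_i)` over `α`. -/
theorem sum_L_line (hψ : ψ 1 ≠ 1) (x : ι → F) (i : ι) :
    ∑ α : F, L ρ ψ x (α • bas i) = ((Fintype.card (Yp x) : ℂ)⁻¹ * Fintype.card F) •
      ∑ y : Yp x, if y.1 i = 0 then ρ (tv x y.1 y.2) else 0 := by
  classical
  unfold L
  rw [← Finset.smul_sum, Finset.sum_comm, mul_smul]
  congr 1
  rw [Finset.smul_sum]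
  refine Finset.sum_congr rfl fun y _ => ?_
  have e : ∀ α : F, y.1 ⬝ᵥ (α • bas i) = α * y.1 i := by
    intro α
    rw [dotProduct_smul, dot_bas, smul_eq_mul]
  simp only [e]
  rw [← Finset.sum_smul, sum_psi_mul hψ]
  split_ifs <;> simp

omit htr hab hac hbc hgood in
theorem L_zero (x : ι → F) : L ρ ψ x 0 = (Fintype.card (Yp x) : ℂ)⁻¹ •
    ∑ y : Yp x, ρ (tv x y.1 y.2) := by
  unfold L
  simp

/-- The vanishing of `f` on a cell. -/
theorem ff_tv_vanish (hψ : ψ 1 ≠ 1) {x : ι → F} {j : ι} (hja : j ≠ a) (hjb : j ≠ b) (hxj : x j ≠ 0)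
    (y : ι → F) (hy : y ⬝ᵥ x = 0) (hya : y a = 0) (hyb : y b ≠ 0) :
    ff ρ ψ a b (tv x y hy) = 0 := by
  set g := tv x y hy with hg
  have h1 : gv g (bas a) = bas a := by
    rw [hg, gv_tv, dot_bas, hya, zero_smul, add_zero]
  have h2 : gv g (bas b) = bas b + y b • x := by
    rw [hg, gv_tv, dot_bas]
  have e1 := L_eq_conj (ρ := ρ) (ψ := ψ) h1 h2
  have h3 : (bas j : ι → F) ⬝ᵥ (bas a : ι → F) = 0 := by
    rw [bas_dot, bas_apply_ne hja]
  have e2 : PP ρ ψ a b * L ρ ψ (bas a) (bas b + y b • x) = 0 := by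
    apply L_orth _ _ _ hψ (bas j) h3
    rw [bas_dot, bas_dot, Pi.add_apply, Pi.smul_apply, bas_apply_ne hjb, zero_add, smul_eq_mul]
    exact (mul_ne_zero hyb hxj).symm
  have e3 : PP ρ ψ a b * ρ g * PP ρ ψ a b = 0 := by
    calc PP ρ ψ a b * ρ g * PP ρ ψ a b
        = PP ρ ψ a b * (ρ g * PP ρ ψ a b * ρ g⁻¹) * ρ g := by
          simp only [mul_assoc]
          rw [rho_inv_mul, mul_one]
      _ = 0 := by rw [← e1, e2, zero_mul]
  rw [ff, LinearMap.trace_mul_comm]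
  have e4 : tr (ρ g * PP ρ ψ a b) = tr (PP ρ ψ a b * ρ g * PP ρ ψ a b) := by
    conv_lhs => rw [← PP_idem (ρ := ρ) (ψ := ψ) (a := a) (b := b)]
    rw [← mul_assoc, LinearMap.trace_mul_comm]
    simp only [mul_assoc]
  rw [e4, e3, map_zero]

/-- The vanishing of the other weights on `P`. -/
theorem tr_L_line_vanish (hψ : ψ 1 ≠ 1) {x : ι → F} {j : ι} (hja : j ≠ a) (hjb : j ≠ b) (hxj : x j ≠ 0)
    {α : F} (hα : α ≠ 0) : tr (L ρ ψ x (α • bas a) * PP ρ ψ a b) = 0 := by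
  set φ : ι → F := bas b - (x b * (x j)⁻¹) • bas j with hφ
  have hφa : φ a = 0 := by
    simp [hφ, bas_apply_ne hab, bas_apply_ne hja.symm]
  have hφb : φ b = 1 := by
    simp [hφ, bas_apply_ne hjb.symm]
  have hφx : φ ⬝ᵥ x = 0 := by
    rw [hφ, sub_dotProduct, smul_dotProduct, bas_dot, bas_dot, smul_eq_mul, mul_assoc,
      inv_mul_cancel₀ hxj, mul_one, sub_self]
  have h0 : φ ⬝ᵥ (bas a : ι → F) = 0 := by
    rw [dot_bas, hφa]
  have hli : ∀ β γ : F, β • x + γ • (α • bas a) = 0 → β = 0 ∧ γ = 0 := by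
    intro β γ hc
    have cj := congrFun hc j
    simp [bas_apply_ne hja] at cj
    have hβ : β = 0 := cj.resolve_right hxj
    subst hβ
    simp only [zero_smul, zero_add] at hc
    have ca := congrFun hc a
    simp [hα] at ca
    exact ⟨rfl, ca⟩
  have e1 := L_absorb (ρ := ρ) (ψ := ψ) htr hab hac hbc hgood hli (bas a) φ h0 hφx
    (by rw [dotProduct_smul, h0, smul_zero])
  have e2 := L_right (ρ := ρ) (ψ := ψ) (bas a) (bas b) φ h0
  rw [dot_bas, hφb] at e2
  have e3 : tr (L ρ ψ x (α • bas a) * PP ρ ψ a b) =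
      ψ 1 * tr (L ρ ψ x (α • bas a) * PP ρ ψ a b) := by
    conv_lhs => rw [← e1]
    rw [mul_assoc, LinearMap.trace_mul_comm, mul_assoc, PP, e2, mul_smul_comm, map_smul, smul_eq_mul]
  have e4 : (ψ 1 - 1) * tr (L ρ ψ x (α • bas a) * PP ρ ψ a b) = 0 := by
    linear_combination -e3
  exact (mul_eq_zero.mp e4).resolve_left (sub_ne_zero.mpr hψ)

omit htr hac hbc hgood in
/-- Counting the `y ⟂ x` that vanish at `a, b`. -/
theorem count_M {x : ι → F} {j : ι} (hja : j ≠ a) (hjb : j ≠ b) (hxj : x j ≠ 0) :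
    (Finset.univ.filter (fun y : Yp x => y.1 a = 0 ∧ y.1 b = 0)).card * Fintype.card F ^ 2 =
      Fintype.card (Yp x) := by
  classical
  have hx0 : x ≠ 0 := fun h => hxj (by rw [h]; rfl)
  let T : (ι → F) →ₗ[F] F × F × F :=
    { toFun := fun y => (y ⬝ᵥ x, y a, y b)
      map_add' := fun y y' => by simp [add_dotProduct]
      map_smul' := fun c y => by simp [smul_dotProduct] }
  have hT : Function.Surjective T := by
    rintro ⟨r, s, t⟩
    refine ⟨s • bas a + t • bas b + ((r - s * x a - t * x b) * (x j)⁻¹) • bas j, ?_⟩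
    have h1 : ((s • bas a + t • bas b + ((r - s * x a - t * x b) * (x j)⁻¹) • bas j) : ι → F) ⬝ᵥ x = r := by
      rw [add_dotProduct, add_dotProduct, smul_dotProduct, smul_dotProduct, smul_dotProduct, bas_dot,
        bas_dot, bas_dot, smul_eq_mul, smul_eq_mul, smul_eq_mul, mul_assoc _ _ (x j),
        inv_mul_cancel₀ hxj]
      ring
    have h2 : ((s • bas a + t • bas b + ((r - s * x a - t * x b) * (x j)⁻¹) • bas j) : ι → F) a = s := by
      simp [bas_apply_ne hab, bas_apply_ne hja.symm]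
    have h3 : ((s • bas a + t • bas b + ((r - s * x a - t * x b) * (x j)⁻¹) • bas j) : ι → F) b = t := by
      simp [bas_apply_ne hab.symm, bas_apply_ne hjb.symm]
    show (_, _, _) = (r, s, t)
    rw [h1, h2, h3]
  have h := card_ker_mul T hT
  simp only [Nat.card_eq_fintype_card, Nat.card_fun, Nat.card_prod] at h
  have e : Fintype.card (LinearMap.ker T) =
      (Finset.univ.filter (fun y : Yp x => y.1 a = 0 ∧ y.1 b = 0)).card := by
    rw [← Fintype.card_subtype]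
    refine Fintype.card_congr
      { toFun := fun y => ⟨⟨y.1, ?_⟩, ?_⟩
        invFun := fun y => ⟨y.1.1, ?_⟩
        left_inv := fun y => rfl
        right_inv := fun y => rfl }
    · have := y.2
      rw [LinearMap.mem_ker] at this
      exact congrArg Prod.fst this
    · have := y.2
      rw [LinearMap.mem_ker] at this
      exact ⟨congrArg (fun p : F × F × F => p.2.1) this, congrArg (fun p : F × F × F => p.2.2) this⟩
    · rw [LinearMap.mem_ker]
      show (y.1.1 ⬝ᵥ x, y.1.1 a, y.1.1 b) = (0, 0, 0)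
      rw [y.1.2, y.2.1, y.2.2]
  have h2 := card_Yp_mul hx0
  rw [e] at h
  have h3 : Fintype.card (ι → F) = Fintype.card F ^ Fintype.card ι := by simp
  rw [h3, ← h2] at h
  have hq : 0 < Fintype.card F := Fintype.card_pos
  apply Nat.eq_of_mul_eq_mul_right hq
  rw [← h, Fintype.card_prod, Fintype.card_prod]
  ring

omit hac hbc hgood htr hab in
/-- The trace formula for the line sum. -/
theorem tr_line_formula (hψ : ψ 1 ≠ 1) (x : ι → F) :
    ∑ α : F, tr (L ρ ψ x (α • bas a) * PP ρ ψ a b) =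
      ((Fintype.card (Yp x) : ℂ)⁻¹ * Fintype.card F) *
        ∑ y : Yp x, if y.1 a = 0 then ff ρ ψ a b (tv x y.1 y.2) else 0 := by
  have e0 : ∑ α : F, tr (L ρ ψ x (α • bas a) * PP ρ ψ a b) =
      tr ((∑ α : F, L ρ ψ x (α • bas a)) * PP ρ ψ a b) := by
    rw [Finset.sum_mul]
    exact (map_sum (LinearMap.trace ℂ U) _ _).symm
  rw [e0, sum_L_line hψ, smul_mul_assoc, map_smul, smul_eq_mul]
  congr 1
  rw [Finset.sum_mul]
  refine (map_sum (LinearMap.trace ℂ U) _ _).trans ?_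
  refine Finset.sum_congr rfl fun y _ => ?_
  split_ifs
  · rw [ff, LinearMap.trace_mul_comm]
  · simp

theorem ff_tv_sum_line (hψ : ψ 1 ≠ 1) {x : ι → F} {j : ι} (hja : j ≠ a) (hjb : j ≠ b) (hxj : x j ≠ 0) :
    tr (L ρ ψ x 0 * PP ρ ψ a b) = ∑ α : F, tr (L ρ ψ x (α • bas a) * PP ρ ψ a b) := by
  rw [Finset.sum_eq_single (0 : F)]
  · rw [zero_smul]
  · intro α _ hα
    exact tr_L_line_vanish htr hab hac hbc hgood hψ hja hjb hxj hα
  · simp

/-- The main value. -/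
theorem tr_E_P (hψ : ψ 1 ≠ 1) {x : ι → F} {j : ι} (hja : j ≠ a) (hjb : j ≠ b) (hxj : x j ≠ 0) :
    tr (L ρ ψ x 0 * PP ρ ψ a b) = (Fintype.card F : ℂ)⁻¹ := by
  classical
  rw [ff_tv_sum_line htr hab hac hbc hgood hψ hja hjb hxj, tr_line_formula hψ]
  have h1 : ∀ y : Yp x, (if y.1 a = 0 then ff ρ ψ a b (tv x y.1 y.2) else 0) =
      if y.1 a = 0 ∧ y.1 b = 0 then (1 : ℂ) else 0 := by
    intro y
    by_cases hya : y.1 a = 0
    · by_cases hyb : y.1 b = 0
      · rw [if_pos hya, if_pos ⟨hya, hyb⟩]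
        exact ff_tv_eq_one htr hab hac hbc hgood _ _ _ hya hyb
      · rw [if_pos hya, if_neg (fun h => hyb h.2)]
        exact ff_tv_vanish htr hab hac hbc hgood hψ hja hjb hxj _ _ hya hyb
    · rw [if_neg hya, if_neg (fun h => hya h.1)]
  simp only [h1]
  rw [Finset.sum_boole]
  have h2 := count_M (F := F) hab hja hjb hxj (a := a) (b := b)
  have h3 : ((Finset.univ.filter (fun y : Yp x => y.1 a = 0 ∧ y.1 b = 0)).card : ℂ) *
      (Fintype.card F : ℂ) ^ 2 = Fintype.card (Yp x) := by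
    exact_mod_cast h2
  have hN := card_Yp_ne x
  have hq : (Fintype.card F : ℂ) ≠ 0 := Nat.cast_ne_zero.mpr Fintype.card_ne_zero
  rw [← h3] at hN ⊢
  have hM : ((Finset.univ.filter (fun y : Yp x => y.1 a = 0 ∧ y.1 b = 0)).card : ℂ) ≠ 0 := by
    intro h0
    rw [h0, zero_mul] at hN
    exact hN rfl
  field_simp

/-- The orthogonality criterion from `E_b P = 0`. -/
theorem ff_vanish_of_E (hψ : ψ 1 ≠ 1) (hE : L ρ ψ (bas b) 0 * PP ρ ψ a b = 0) (y : ι → F)
    (hy : y ⬝ᵥ bas c = 0) (hya : y a ≠ 0) : ff ρ ψ a b (tv (bas c) y hy) = 0 := by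
  have hyc : y c = 0 := by rwa [dot_bas] at hy
  set y0 : ι → F := y - y b • bas b with hy0
  have hy0a : y0 a = y a := by simp [hy0, bas_apply_ne hab]
  have hy0b : y0 b = 0 := by simp [hy0]
  have hy0c : y0 c = 0 := by simp [hy0, hyc, bas_apply_ne hbc.symm]
  have hd0 : y0 ⬝ᵥ bas c = 0 := by rw [dot_bas, hy0c]
  -- reduce to `y0`
  set η : F := -(y b * (y a)⁻¹) with hη
  have hk0 : (bas b : ι → F) ⬝ᵥ (η • bas a) = 0 := by
    rw [dotProduct_smul, bas_dot, bas_apply_ne hab.symm, smul_zero]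
  have hcomm : ρ (tv (η • bas a) (bas b) hk0) * PP ρ ψ a b =
      PP ρ ψ a b * ρ (tv (η • bas a) (bas b) hk0) := by
    have h1 : (η • (bas b : ι → F)) ⬝ᵥ (bas a : ι → F) = 0 := by
      rw [smul_dotProduct, bas_dot, bas_apply_ne hab.symm, smul_zero]
    rw [tv_smul_eq (bas a) (bas b) η hk0 h1, L_left, L_right]
  have e1 : tv (η • bas a) (bas b) hk0 * tv (bas c) y0 hd0 * (tv (η • bas a) (bas b) hk0)⁻¹ =
      tv (bas c) y hy := by
    rw [tv_conj_tv]
    apply tv_congr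
    congr 1
    · rw [bas_dot, bas_apply_ne hbc, zero_smul, add_zero]
    · rw [dotProduct_smul, dot_bas, hy0a, smul_eq_mul, hη, hy0]
      ext i
      simp only [Pi.sub_apply, Pi.smul_apply, smul_eq_mul]
      field_simp
      ring
  rw [← e1, ff_conj hcomm]
  set g := tv (bas c) y0 hd0 with hg
  -- invariance under the row `b` group
  have key : ∀ y' : Yp (bas b : ι → F),
      tr (PP ρ ψ a b * ρ g * ρ (tv (bas b) y'.1 y'.2)) = ff ρ ψ a b g := by
    rintro ⟨y', hy'⟩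
    have hy'b : y' b = 0 := by rwa [dot_bas] at hy'
    set γ : F := y' a * (y a)⁻¹ with hγ
    set y'' : ι → F := y' - γ • y0 with hy''
    have hy''a : y'' a = 0 := by
      simp only [hy'', Pi.sub_apply, Pi.smul_apply, smul_eq_mul, hy0a, hγ]
      rw [mul_assoc, inv_mul_cancel₀ hya, mul_one, sub_self]
    have hy''b : y'' b = 0 := by
      simp only [hy'', Pi.sub_apply, Pi.smul_apply, smul_eq_mul, hy0b, hy'b, mul_zero, sub_self]
    have d1 : (γ • y0) ⬝ᵥ (bas b : ι → F) = 0 := by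
      rw [dot_bas, Pi.smul_apply, hy0b, smul_zero]
    have d2 : y'' ⬝ᵥ (bas b : ι → F) = 0 := by
      rw [dot_bas, hy''b]
    have e2 : tv (bas b) y' hy' = tv (bas b) (γ • y0) d1 * tv (bas b) y'' d2 := by
      rw [tv_mul_right]
      apply tv_congr
      congr 1
      rw [hy'']
      abel
    have e3 := absorb_left (ρ := ρ) (ψ := ψ) htr hab hac hbc hgood (bas b) y'' d2 hy''a hy''b
    have e4 : tr (PP ρ ψ a b * ρ g * ρ (tv (bas b) y' hy')) =
        tr (PP ρ ψ a b * ρ g * ρ (tv (bas b) (γ • y0) d1)) := by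
      rw [e2, map_mul ρ, ← mul_assoc, LinearMap.trace_mul_comm, mul_assoc (PP ρ ψ a b),
        ← mul_assoc (ρ (tv (bas b) y'' d2)), e3]
    rw [e4]
    -- the conjugation by the root element `b c`
    have hr0 : (bas c : ι → F) ⬝ᵥ (γ • bas b) = 0 := by
      rw [dotProduct_smul, bas_dot, bas_apply_ne hbc.symm, smul_zero]
    have hrR : R0 a b (tv (γ • bas b) (bas c) hr0) :=
      R0_tv _ _ _ (bas_apply_ne hac) (bas_apply_ne hbc)
    have d3 : y0 ⬝ᵥ (γ • (bas b : ι → F)) = 0 := by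
      rw [dotProduct_smul, dot_bas, hy0b, smul_zero]
    have e5 : tv (γ • bas b) (bas c) hr0 * g * (tv (γ • bas b) (bas c) hr0)⁻¹ =
        g * tv (bas b) (γ • y0) d1 := by
      rw [hg, tv_conj_tv]
      rw [← tv_smul_eq (bas b) y0 γ d3 d1, tv_mul_left]
      apply tv_congr
      congr 1
      · rw [bas_dot]
        simp only [bas_apply_self, one_smul]
      · rw [d3, zero_smul, sub_zero]
    have e6 : tr (PP ρ ψ a b * ρ g * ρ (tv (bas b) (γ • y0) d1)) =
        ff ρ ψ a b (g * tv (bas b) (γ • y0) d1) := by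
      rw [ff, map_mul ρ, mul_assoc]
    rw [e6, ← e5, ff_conj (comm_of_R0 hrR)]
  -- the average
  have hN := card_Yp_ne (bas b : ι → F)
  have e7 : tr (PP ρ ψ a b * ρ g * L ρ ψ (bas b) 0) = ff ρ ψ a b g := by
    rw [L_zero, mul_smul_comm, map_smul, Finset.mul_sum, map_sum (LinearMap.trace ℂ U)]
    simp only [key, Finset.sum_const, Finset.card_univ, smul_eq_mul, nsmul_eq_mul]
    field_simp
  rw [← e7, LinearMap.trace_mul_comm, ← mul_assoc, hE, zero_mul, map_zero]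

/-- `E_b P` is not zero. -/
theorem E_b_ne (hψ : ψ 1 ≠ 1) : L ρ ψ (bas b) 0 * PP ρ ψ a b ≠ 0 := by
  intro hE
  have hja : c ≠ a := hac.symm
  have hjb : c ≠ b := hbc.symm
  have hxj : (bas c : ι → F) c ≠ 0 := by simp
  have h1 := tr_E_P htr hab hac hbc hgood hψ hja hjb hxj
  have h2 := ff_tv_sum_line htr hab hac hbc hgood hψ hja hjb hxj
  rw [tr_line_formula hψ] at h2
  have h3 : tr (L ρ ψ (bas c) 0 * PP ρ ψ a b) = (Fintype.card (Yp (bas c : ι → F)) : ℂ)⁻¹ *
      ∑ y : Yp (bas c : ι → F), if y.1 a = 0 then ff ρ ψ a b (tv (bas c) y.1 y.2) else 0 := by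
    rw [L_zero, smul_mul_assoc, map_smul, Finset.sum_mul, map_sum (LinearMap.trace ℂ U), smul_eq_mul]
    congr 1
    refine Finset.sum_congr rfl fun y _ => ?_
    split_ifs with hya
    · rw [ff, LinearMap.trace_mul_comm]
    · rw [LinearMap.trace_mul_comm]
      exact ff_vanish_of_E htr hab hac hbc hgood hψ hE y.1 y.2 hya
  have hq : (Fintype.card F : ℂ) ≠ 0 := Nat.cast_ne_zero.mpr Fintype.card_ne_zero
  have hq1 : (Fintype.card F : ℂ) ≠ 1 := by
    have := Fintype.one_lt_card (α := F)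
    exact_mod_cast this.ne'
  have h4 : tr (L ρ ψ (bas c) 0 * PP ρ ψ a b) =
      Fintype.card F * tr (L ρ ψ (bas c) 0 * PP ρ ψ a b) := by
    conv_lhs => rw [h2]
    rw [h3]
    ring
  rw [h1] at h4
  field_simp at h4
  exact hq1 h4.symm

end main

end Cfsg.Agent.Lib.MinDeg.SLn
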