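import Cfsg.Agent.Lib.MinDeg.SLn.PiZero

/-!
# The stabilizer of the plane `⟨e_a, e_b⟩`: the identity `c (y + q - 1) = (q² - 1) y`
-/

set_option autoImplicit false
set_option linter.unusedSectionVars false
set_option linter.unusedSimpArgs false
set_option linter.unusedVariables false

namespace Cfsg.Agent.Lib.MinDeg.SLn

open Matrix Cfsg.Agent.Lib.MinIndex.SLTv

variable {ι F : Type*} [Fintype ι] [DecidableEq ι] [Field F] [Fintype F] [DecidableEq F]
variable {U : Type*} [AddCommGroup U] [Module ℂ U] [FiniteDimensional ℂ U]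

local notation "tr" => LinearMap.trace ℂ U

/-- Vectors in the plane spanned by `e_a, e_b`. -/
def InPi (a b : ι) (x : ι → F) : Prop := ∀ j, j ≠ a → j ≠ b → x j = 0

instance InPi_dec (a b : ι) : DecidablePred (InPi (F := F) a b) := fun x => by
  unfold InPi
  infer_instance

variable {a b c : ι}

theorem InPi.eq {x : ι → F} (hab : a ≠ b) (hx : InPi a b x) : x = x a • bas a + x b • bas b := by
  ext j
  by_cases hja : j = a
  · subst hja
    simp [bas_apply_ne hab]
  by_cases hjb : j = b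
  · subst hjb
    simp [bas_apply_ne hab.symm]
  simp [hx j hja hjb, bas_apply_ne hja, bas_apply_ne hjb]

theorem InPi_smul_add (hab : a ≠ b) (α β : F) :
    InPi a b (α • (bas a : ι → F) + β • (bas b : ι → F)) := by
  intro j hja hjb
  simp [bas_apply_ne hja, bas_apply_ne hjb]

theorem dot_inPi {x y : ι → F} (hya : y a = 0) (hyb : y b = 0) (hx : InPi a b x) : y ⬝ᵥ x = 0 := by
  refine Finset.sum_eq_zero fun j _ => ?_
  by_cases hja : j = a
  · subst hja
    simp [hya]
  by_cases hjb : j = b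
  · subst hjb
    simp [hyb]
  simp [hx j hja hjb]

variable (F) in
/-- The stabilizer of the plane. -/
def HH (a b : ι) : Subgroup (SpecialLinearGroup ι F) where
  carrier := {g | ∀ x, InPi a b x → InPi a b (gv g x)}
  mul_mem' := by
    intro g h hg hh x hx
    rw [gv_mul]
    exact hg _ (hh _ hx)
  one_mem' := by
    intro x hx
    rw [gv_one]
    exact hx
  inv_mem' := by
    intro g hg
    have h1 : ∀ k : ℕ, ∀ x, InPi a b x → InPi a b (gv (g ^ k) x) := by
      intro k
      induction k with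
      | zero =>
        intro x hx
        rw [pow_zero, gv_one]
        exact hx
      | succ k ih =>
        intro x hx
        rw [pow_succ, gv_mul]
        exact ih _ (hg _ hx)
    have h2 : g⁻¹ = g ^ (orderOf g - 1) := by
      rw [eq_comm, eq_inv_iff_mul_eq_one, ← pow_succ, Nat.sub_add_cancel (orderOf_pos g),
        pow_orderOf_eq_one]
    rw [h2]
    exact h1 _

theorem mem_HH_iff {g : SpecialLinearGroup ι F} :
    g ∈ HH F a b ↔ ∀ x, InPi a b x → InPi a b (gv g x) := Iff.rfl

noncomputable instance HH_fintype (a b : ι) : Fintype (HH F a b) := Fintype.ofFinite _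

theorem mem_HH_of {g : SpecialLinearGroup ι F} (hab : a ≠ b) (h1 : InPi a b (gv g (bas a)))
    (h2 : InPi a b (gv g (bas b))) : g ∈ HH F a b := by
  intro x hx
  rw [hx.eq hab, gv_add, gv_smul, gv_smul]
  intro j hja hjb
  rw [Pi.add_apply, Pi.smul_apply, Pi.smul_apply, h1 j hja hjb, h2 j hja hjb]
  simp

theorem tv_a_mem_HH {y : ι → F} (hy : y ⬝ᵥ bas a = 0) : tv (bas a) y hy ∈ HH F a b := by
  intro x hx j hja hjb
  rw [gv_tv, Pi.add_apply, Pi.smul_apply, hx j hja hjb, bas_apply_ne hja]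
  simp

/-- Pairs in the plane are moved by the stabilizer. -/
theorem exists_HH_pair (hab : a ≠ b) (h3 : 3 ≤ Fintype.card ι) {x u : ι → F} (hx : InPi a b x)
    (hu : InPi a b u) (hli : ∀ α β : F, α • x + β • u = 0 → α = 0 ∧ β = 0) :
    ∃ h ∈ HH F a b, gv h (bas a) = x ∧ gv h (bas b) = u := by
  obtain ⟨g, hg1, hg2⟩ := exists_pair (F := F) hab h3 hli
  exact ⟨g, mem_HH_of hab (by rw [hg1]; exact hx) (by rw [hg2]; exact hu), hg1, hg2⟩

theorem exists_HH_of_ne (hab : a ≠ b) (h3 : 3 ≤ Fintype.card ι) {x : ι → F} (hx : InPi a b x)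
    (hx0 : x ≠ 0) : ∃ h ∈ HH F a b, gv h (bas a) = x := by
  by_cases hxb : x b = 0
  · have hxa : x a ≠ 0 := by
      intro hxa
      apply hx0
      rw [hx.eq hab, hxa, hxb]
      simp
    obtain ⟨h, hh, h1, _⟩ := exists_HH_pair (F := F) (x := x) (u := bas b) hab h3 hx
      (by simpa using InPi_smul_add (F := F) hab 0 1) (by
        intro α β hc
        have ca := congrFun hc a
        have cb := congrFun hc b
        simp [bas_apply_ne hab, hxa, hxb] at ca cb
        exact ⟨ca, cb⟩)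
    exact ⟨h, hh, h1⟩
  · obtain ⟨h, hh, h1, _⟩ := exists_HH_pair (F := F) (x := x) (u := bas a) hab h3 hx
      (by simpa using InPi_smul_add (F := F) hab 1 0) (by
        intro α β hc
        have cb := congrFun hc b
        simp [bas_apply_ne hab.symm, hxb] at cb
        subst cb
        simp only [zero_smul, zero_add] at hc
        have ca := congrFun hc a
        simp at ca
        exact ⟨rfl, ca⟩)
    exact ⟨h, hh, h1⟩

variable {ρ : SpecialLinearGroup ι F →* Module.End ℂ U} {ψ : AddChar F ℂ}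

/-- What commutes with the row group commutes with its weight projections. -/
theorem comm_L {x : ι → F} (T : Module.End ℂ U)
    (hT : ∀ y (hy : y ⬝ᵥ x = 0), ρ (tv x y hy) * T = T * ρ (tv x y hy)) (u : ι → F) :
    T * L ρ ψ x u = L ρ ψ x u * T := by
  unfold L
  rw [mul_smul_comm, smul_mul_assoc]
  congr 1
  rw [Finset.mul_sum, Finset.sum_mul]
  refine Finset.sum_congr rfl fun y _ => ?_
  rw [mul_smul_comm, smul_mul_assoc, hT]

theorem gv_zero (g : SpecialLinearGroup ι F) : gv g 0 = 0 := mulVec_zero _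

/-- Plane parametrization. -/
def planeMap (a b : ι) (p : F × F) : ι → F := p.1 • bas a + p.2 • bas b

theorem planeMap_inj (hab : a ≠ b) : Function.Injective (planeMap (F := F) a b) := by
  intro p p' h
  have ca := congrFun h a
  have cb := congrFun h b
  simp [planeMap, bas_apply_ne hab, bas_apply_ne hab.symm] at ca cb
  exact Prod.ext ca cb

theorem filter_InPi (hab : a ≠ b) :
    (Finset.univ.filter (InPi (F := F) a b)) = Finset.univ.image (planeMap a b) := by
  ext x
  simp only [Finset.mem_filter, Finset.mem_univ, true_and, Finset.mem_image]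
  constructor
  · intro hx
    exact ⟨(x a, x b), (hx.eq hab).symm⟩
  · rintro ⟨p, rfl⟩
    exact InPi_smul_add hab _ _

theorem card_InPi (hab : a ≠ b) :
    (Finset.univ.filter (InPi (F := F) a b)).card = Fintype.card F ^ 2 := by
  rw [filter_InPi hab, Finset.card_image_of_injective _ (planeMap_inj hab), Finset.card_univ,
    Fintype.card_prod, pow_two]

variable (F) in
/-- The nonzero vectors of the plane. -/
def SPi (a b : ι) : Finset (ι → F) := Finset.univ.filter (fun x => InPi a b x ∧ x ≠ 0)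

theorem card_SPi (hab : a ≠ b) : ((SPi F a b).card : ℂ) = (Fintype.card F : ℂ) ^ 2 - 1 := by
  have h1 : SPi F a b = (Finset.univ.filter (InPi (F := F) a b)).erase 0 := by
    ext x
    simp [SPi, and_comm]
  have h2 : (0 : ι → F) ∈ Finset.univ.filter (InPi (F := F) a b) := by
    simp only [Finset.mem_filter, Finset.mem_univ, true_and]
    intro j _ _
    rfl
  rw [h1, Finset.card_erase_of_mem h2, card_InPi hab, Nat.cast_sub (Nat.one_le_pow _ _ Fintype.card_pos)]
  simp

/-- The sum of a function vanishing off the plane. -/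
theorem sum_eq_plane (hab : a ≠ b) (f : (ι → F) → ℂ) (hf : ∀ u, ¬ InPi a b u → f u = 0) :
    ∑ u, f u = ∑ α : F, ∑ β : F, f (α • bas a + β • bas b) := by
  rw [← Fintype.sum_prod_type' (fun α β => f (α • bas a + β • bas b))]
  symm
  refine Finset.sum_of_injOn (planeMap a b) (planeMap_inj hab).injOn (fun _ _ => Finset.mem_coe.mpr (Finset.mem_univ _)) ?_ ?_
  · intro u _ hu
    apply hf
    intro hInPi
    exact hu ⟨(u a, u b), Finset.mem_coe.mpr (Finset.mem_univ _), (hInPi.eq hab).symm⟩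
  · intro p _
    rfl

section main

variable (htr : LinearMap.trace ℂ U (PP ρ ψ a b) = (1 : ℂ)) (hab : a ≠ b) (hac : a ≠ c)
  (hbc : b ≠ c) (hgood : GoodSL ι F) (hψ : ψ 1 ≠ 1)
include htr hab hac hbc hgood

/-- Transvections vanishing on the plane absorb `ρ h P` for `h` in the stabilizer of the plane. -/
theorem absorb_conj_H (z φ : ι → F) (h : φ ⬝ᵥ z = 0) (ha : φ a = 0) (hb : φ b = 0)
    {k : SpecialLinearGroup ι F} (hk : k ∈ HH F a b) :
    ρ (tv z φ h) * (ρ k * PP ρ ψ a b) = ρ k * PP ρ ψ a b := by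
  have h1 : vg φ k ⬝ᵥ gv k⁻¹ z = 0 := by
    rw [vg_dot_gv, gv_gv_inv, h]
  have ha' : vg φ k a = 0 := by
    rw [← dot_bas (vg φ k) a, vg_dot_gv]
    exact dot_inPi ha hb (hk _ (by simpa using InPi_smul_add (F := F) hab 1 0))
  have hb' : vg φ k b = 0 := by
    rw [← dot_bas (vg φ k) b, vg_dot_gv]
    exact dot_inPi ha hb (hk _ (by simpa using InPi_smul_add (F := F) hab 0 1))
  have e : k * tv (gv k⁻¹ z) (vg φ k) h1 * k⁻¹ = tv z φ h := by
    rw [tv_conj']
    apply tv_congr
    rw [gv_gv_inv, vg_vg_inv]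
  have e2 := absorb_left htr hab hac hbc hgood (gv k⁻¹ z) (vg φ k) h1 ha' hb'
  rw [← e, map_mul, map_mul]
  calc ρ k * ρ (tv (gv k⁻¹ z) (vg φ k) h1) * ρ k⁻¹ * (ρ k * PP ρ ψ a b)
      = ρ k * ρ (tv (gv k⁻¹ z) (vg φ k) h1) * (ρ k⁻¹ * ρ k) * PP ρ ψ a b := by
        simp only [mul_assoc]
    _ = ρ k * (ρ (tv (gv k⁻¹ z) (vg φ k) h1) * PP ρ ψ a b) := by
        rw [rho_inv_mul, mul_one, mul_assoc (ρ k)]
    _ = ρ k * PP ρ ψ a b := by rw [e2]

/-- The `GL₂` identity. -/
theorem gl2_identity (hψ : ψ 1 ≠ 1) :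
    ∃ y : ℕ, y ≠ 0 ∧
      (∑ x ∈ SPi F a b, tr (L ρ ψ x 0 * PP ρ ψ a b)) * ((y : ℂ) + Fintype.card F - 1) =
        ((Fintype.card F : ℂ) ^ 2 - 1) * y := by
  classical
  have h3 := hgood.three_le
  have hPP := PP_idem (ρ := ρ) (ψ := ψ) (a := a) (b := b)
  have hcomm : ∀ T, (∀ h ∈ HH F a b, ρ h * T = T * ρ h) → T * PP ρ ψ a b = PP ρ ψ a b * T :=
    fun T hT => comm_L T (fun y hy => hT _ (tv_a_mem_HH hy)) _
  obtain ⟨π, hππ, hπH, hπP, hπr, hπT⟩ := exists_pi0 ρ (HH F a b) hPP htr hcomm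
  set E := L ρ ψ (bas a) 0 with hE
  have hEE : E * E = E := L_idem _ _
  have hEπ : π * E = E * π := comm_L π (fun y hy => hπH _ (tv_a_mem_HH hy)) 0
  have hidem : (E * π) * (E * π) = E * π := by
    calc (E * π) * (E * π) = E * (π * E) * π := by simp only [mul_assoc]
      _ = E * (E * π) * π := by rw [hEπ]
      _ = (E * E) * (π * π) := by simp only [mul_assoc]
      _ = E * π := by rw [hEE, hππ]
  set y := Module.finrank ℂ (LinearMap.range (E * π)) with hy
  have hty : tr (E * π) = (y : ℂ) := idem_trace hidem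
  -- invariance under conjugation
  have hconj : ∀ h ∈ HH F a b, ∀ A : Module.End ℂ U, ρ h * A * ρ h⁻¹ * π = ρ h * (A * π) * ρ h⁻¹ := by
    intro h hh A
    rw [mul_assoc _ (ρ h⁻¹) π, hπH _ (inv_mem hh)]
    simp only [mul_assoc]
  have hq : (Fintype.card F : ℂ) ≠ 0 := Nat.cast_ne_zero.mpr Fintype.card_ne_zero
  set t : (ι → F) → ℂ := fun u => tr (L ρ ψ (bas a) u * π) with ht
  -- vanishing off the plane
  have ht0 : ∀ u, ¬ InPi a b u → t u = 0 := by
    intro u hu
    unfold InPi at hu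
    push Not at hu
    obtain ⟨j, hja, hjb, huj⟩ := hu
    set φ : ι → F := (u j)⁻¹ • bas j with hφ
    have h0 : φ ⬝ᵥ (bas a : ι → F) = 0 := by
      rw [hφ, smul_dotProduct, bas_dot, bas_apply_ne hja, smul_zero]
    have hφa : φ a = 0 := by
      rw [hφ, Pi.smul_apply, bas_apply_ne hja.symm, smul_zero]
    have hφb : φ b = 0 := by
      rw [hφ, Pi.smul_apply, bas_apply_ne hjb.symm, smul_zero]
    have hφu : φ ⬝ᵥ u = 1 := by
      rw [hφ, smul_dotProduct, bas_dot, smul_eq_mul, inv_mul_cancel₀ huj]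
    have e1 : ρ (tv (bas a) φ h0) * π = π :=
      hπr _ fun k hk => absorb_conj_H htr hab hac hbc hgood _ _ _ hφa hφb hk
    have e2 := L_right (ρ := ρ) (ψ := ψ) (bas a) u φ h0
    rw [hφu] at e2
    have e3 : t u = ψ 1 * t u := by
      show tr (L ρ ψ (bas a) u * π) = ψ 1 * tr (L ρ ψ (bas a) u * π)
      conv_lhs => rw [← e1, ← mul_assoc, e2, smul_mul_assoc, map_smul, smul_eq_mul]
    have e4 : (ψ 1 - 1) * t u = 0 := by linear_combination -e3
    exact (mul_eq_zero.mp e4).resolve_left (sub_ne_zero.mpr hψ)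
  -- the nonzero weights in the plane
  have ht1 : ∀ β : F, β ≠ 0 → t (β • bas b) = 1 := by
    intro β hβ
    have hinb : InPi a b (β • (bas b : ι → F)) := by simpa using InPi_smul_add (F := F) hab 0 β
    have hina : InPi a b (bas a : ι → F) := by simpa using InPi_smul_add (F := F) hab 1 0
    obtain ⟨h, hh, h1, h2⟩ := exists_HH_pair (F := F) hab h3 hina hinb (by
      intro α γ hc
      have ca := congrFun hc a
      have cb := congrFun hc b
      simp [bas_apply_ne hab, bas_apply_ne hab.symm, hβ] at ca cb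
      exact ⟨ca, cb⟩)
    show tr (L ρ ψ (bas a) (β • bas b) * π) = 1
    rw [L_eq_conj h1 h2, hconj h hh, tr_conj, LinearMap.trace_mul_comm, hπP, htr]
  have ht2 : t 0 = y := hty
  -- the sum
  have hsum : (Fintype.card F : ℂ) * tr π = ∑ u, t u := by
    have hb0 : (bas a : ι → F) ≠ 0 := by
      intro h0
      have := congrFun h0 a
      simp at this
    have e := sum_L (ρ := ρ) (ψ := ψ) hψ hb0
    have e1 : (∑ u, L ρ ψ (bas a) u) * π = (Fintype.card F : ℂ) • π := by
      rw [e, smul_mul_assoc, one_mul]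
    have e2 := congrArg tr e1
    rw [Finset.sum_mul, map_sum (LinearMap.trace ℂ U), map_smul, smul_eq_mul] at e2
    exact e2.symm
  have hplane : ∑ u, t u = (Fintype.card F : ℂ) * ((y : ℂ) + Fintype.card F - 1) := by
    rw [sum_eq_plane hab t ht0]
    have e1 : ∀ α β : F, t (α • bas a + β • bas b) = t (β • bas b) := by
      intro α β
      show tr (L ρ ψ (bas a) (α • bas a + β • bas b) * π) = tr (L ρ ψ (bas a) (β • bas b) * π)
      rw [add_comm, L_add_smul]
    simp only [e1, Finset.sum_const, Finset.card_univ, nsmul_eq_mul]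
    congr 1
    rw [← Finset.add_sum_erase _ _ (Finset.mem_univ (0 : F)), zero_smul, ht2]
    have e2 : ∑ β ∈ Finset.univ.erase (0 : F), t (β • bas b) = ∑ β ∈ Finset.univ.erase (0 : F), (1 : ℂ) :=
      Finset.sum_congr rfl fun β hβ => ht1 β (Finset.ne_of_mem_erase hβ)
    rw [e2, Finset.sum_const, Finset.card_erase_of_mem (Finset.mem_univ _), Finset.card_univ,
      nsmul_eq_mul, mul_one, Nat.cast_sub Fintype.card_pos]
    simp
    ring
  have hπtr : tr π = (y : ℂ) + Fintype.card F - 1 := by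
    apply mul_left_cancel₀ hq
    rw [hsum, hplane]
  -- the operator `T`
  set T : Module.End ℂ U := ∑ x ∈ SPi F a b, L ρ ψ x 0 with hT
  have hTH : ∀ h ∈ HH F a b, ρ h * T = T * ρ h := by
    intro h hh
    have e : ρ h * T * ρ h⁻¹ = T := by
      rw [hT, Finset.mul_sum, Finset.sum_mul]
      have e0 : ∀ x : ι → F, ρ h * L ρ ψ x 0 * ρ h⁻¹ = L ρ ψ (gv h x) 0 := by
        intro x
        rw [L_conj, gv_zero]
      simp only [e0]
      refine Finset.sum_nbij' (gv h) (gv h⁻¹) ?_ ?_ ?_ ?_ ?_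
      · intro x hx
        simp only [SPi, Finset.mem_filter, Finset.mem_univ, true_and] at hx ⊢
        refine ⟨hh _ hx.1, fun h0 => hx.2 ?_⟩
        rw [← gv_inv_gv h x, h0, gv_zero]
      · intro x hx
        simp only [SPi, Finset.mem_filter, Finset.mem_univ, true_and] at hx ⊢
        refine ⟨(inv_mem hh : h⁻¹ ∈ HH F a b) _ hx.1, fun h0 => hx.2 ?_⟩
        rw [← gv_gv_inv h x, h0, gv_zero]
      · intro x _
        exact gv_inv_gv h x
      · intro x _
        exact gv_gv_inv h x
      · intro x _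
        rfl
    calc ρ h * T = ρ h * T * (ρ h⁻¹ * ρ h) := by rw [rho_inv_mul, mul_one]
      _ = (ρ h * T * ρ h⁻¹) * ρ h := by simp only [mul_assoc]
      _ = T * ρ h := by rw [e]
  have hTπ := hπT T hTH
  have e1 : tr (T * π) = ((Fintype.card F : ℂ) ^ 2 - 1) * y := by
    rw [hT, Finset.sum_mul, map_sum (LinearMap.trace ℂ U)]
    have e2 : ∀ x ∈ SPi F a b, tr (L ρ ψ x 0 * π) = (y : ℂ) := by
      intro x hx
      simp only [SPi, Finset.mem_filter, Finset.mem_univ, true_and] at hx
      obtain ⟨h, hh, h1⟩ := exists_HH_of_ne (F := F) hab h3 hx.1 hx.2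
      have e0 : L ρ ψ x 0 = ρ h * E * ρ h⁻¹ := by
        rw [hE, L_conj, h1, gv_zero]
      rw [e0, hconj h hh, tr_conj, hty]
    rw [Finset.sum_congr rfl e2, Finset.sum_const, nsmul_eq_mul, card_SPi hab]
  have e3 : tr (PP ρ ψ a b * T) = ∑ x ∈ SPi F a b, tr (L ρ ψ x 0 * PP ρ ψ a b) := by
    rw [hT, Finset.mul_sum, map_sum (LinearMap.trace ℂ U)]
    exact Finset.sum_congr rfl fun x _ => LinearMap.trace_mul_comm _ _ _
  refine ⟨y, ?_, ?_⟩
  · intro hy0
    have h0 : E * π = 0 := idem_eq_zero hidem (by rw [hty, hy0]; simp)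
    have hbin : InPi a b (bas b : ι → F) := by simpa using InPi_smul_add (F := F) hab 0 1
    have hb0 : (bas b : ι → F) ≠ 0 := by
      intro h0
      have := congrFun h0 b
      simp at this
    obtain ⟨h, hh, h1⟩ := exists_HH_of_ne (F := F) hab h3 hbin hb0
    apply E_b_ne (ρ := ρ) (ψ := ψ) htr hab hac hbc hgood hψ
    have e0 : L ρ ψ (bas b) 0 = ρ h * E * ρ h⁻¹ := by
      rw [hE, L_conj, h1, gv_zero]
    rw [← hπP, ← mul_assoc, e0, hconj h hh, h0]
    simp
  · rw [← e3, ← hπtr, ← e1, hTπ, map_smul, smul_eq_mul]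

end main

end Cfsg.Agent.Lib.MinDeg.SLn
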