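import Cfsg.Agent.Lib.MinDeg.Weil.Odd

/-!
# The deleted permutation representation of a doubly transitive group is irreducible
-/

set_option autoImplicit false
set_option linter.unusedSectionVars false
set_option linter.unusedSimpArgs false
set_option linter.unusedVariables false

namespace Cfsg.Agent.Lib.MinDeg.SLn

variable {G Ω : Type*} [Group G] [Finite G] [MulAction G Ω] [Fintype Ω] [DecidableEq Ω]

/-- The permutation representation. -/
noncomputable def permMon (G Ω : Type*) [Group G] [MulAction G Ω] :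
    G →* Module.End ℂ (Ω → ℂ) where
  toFun g :=
    { toFun := fun f p => f (g⁻¹ • p)
      map_add' := fun f f' => rfl
      map_smul' := fun c f => rfl }
  map_one' := by
    ext f p
    simp
  map_mul' := by
    intro g h
    ext f p
    simp [mul_smul]

theorem permMon_apply (g : G) (f : Ω → ℂ) (p : Ω) : permMon G Ω g f p = f (g⁻¹ • p) := rfl

/-- The functions with sum zero. -/
noncomputable def sumZero (Ω : Type*) [Fintype Ω] : Submodule ℂ (Ω → ℂ) :=
  LinearMap.ker (∑ p : Ω, LinearMap.proj p : (Ω → ℂ) →ₗ[ℂ] ℂ)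

theorem mem_sumZero {f : Ω → ℂ} : f ∈ sumZero Ω ↔ ∑ p, f p = 0 := by
  rw [sumZero, LinearMap.mem_ker, LinearMap.sum_apply]
  rfl

theorem finrank_sumZero [Nonempty Ω] : Module.finrank ℂ (sumZero Ω) = Fintype.card Ω - 1 := by
  have h := LinearMap.finrank_range_add_finrank_ker (∑ p : Ω, LinearMap.proj p : (Ω → ℂ) →ₗ[ℂ] ℂ)
  have hs : Function.Surjective (∑ p : Ω, LinearMap.proj p : (Ω → ℂ) →ₗ[ℂ] ℂ) := by
    intro c
    obtain ⟨p₀⟩ := ‹Nonempty Ω›
    refine ⟨Pi.single p₀ c, ?_⟩
    rw [LinearMap.sum_apply]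
    simp [Finset.sum_pi_single']
  rw [LinearMap.range_eq_top.mpr hs, finrank_top, Module.finrank_self,
    Module.finrank_fintype_fun_eq_card] at h
  rw [← h, Nat.add_sub_cancel_left]
  rfl

theorem sumZero_invariant (g : G) {f : Ω → ℂ} (hf : f ∈ sumZero Ω) : permMon G Ω g f ∈ sumZero Ω := by
  rw [mem_sumZero] at hf ⊢
  simp only [permMon_apply]
  rw [← hf]
  exact Fintype.sum_equiv (MulAction.toPerm g⁻¹) _ _ fun p => rfl

/-- Irreducibility of the deleted permutation module. -/
theorem sumZero_irred (h2 : ∀ {a b c d : Ω}, a ≠ b → c ≠ d → ∃ g : G, g • a = c ∧ g • b = d)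
    (hΩ : 2 ≤ Fintype.card Ω) (K : Submodule ℂ (Ω → ℂ)) (hKU : K ≤ sumZero Ω) (hK0 : K ≠ ⊥)
    (hK : ∀ g, ∀ f ∈ K, permMon G Ω g f ∈ K) : K = sumZero Ω := by
  classical
  obtain ⟨f, hf, hf0⟩ := Submodule.exists_mem_ne_zero_of_ne_bot hK0
  obtain ⟨p₀, hp₀⟩ := Function.ne_iff.mp hf0
  have hother : ∀ p : Ω, ∃ p' : Ω, p' ≠ p := by
    intro p
    have : Nontrivial Ω := Fintype.one_lt_card_iff_nontrivial.mp (by omega)
    exact exists_ne p
  obtain ⟨p₁, hp₁⟩ := hother p₀
  let _ : Fintype (MulAction.stabilizer G p₀) := Fintype.ofFinite _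
  set h : Ω → ℂ := ∑ g : MulAction.stabilizer G p₀, permMon G Ω g.1 f with hh
  have hhK : h ∈ K := Submodule.sum_mem _ fun g _ => hK _ _ hf
  have hval : ∀ p, h p = ∑ g : MulAction.stabilizer G p₀, f (g.1⁻¹ • p) := by
    intro p
    rw [hh, Finset.sum_apply]
    rfl
  have hα : h p₀ ≠ 0 := by
    rw [hval]
    have : ∀ g : MulAction.stabilizer G p₀, f (g.1⁻¹ • p₀) = f p₀ := by
      intro g
      congr 1
      exact MulAction.mem_stabilizer_iff.mp (inv_mem g.2)
    simp only [this, Finset.sum_const, Finset.card_univ, nsmul_eq_mul]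
    exact mul_ne_zero (Nat.cast_ne_zero.mpr Fintype.card_ne_zero) hp₀
  have hinv : ∀ k ∈ MulAction.stabilizer G p₀, ∀ p, h (k⁻¹ • p) = h p := by
    intro k hk p
    rw [hval, hval]
    refine Fintype.sum_equiv (Equiv.mulLeft (⟨k, hk⟩ : MulAction.stabilizer G p₀)) _ _ fun g => ?_
    simp [mul_smul]
  set α := h p₀ with hαdef
  set β := h p₁ with hβdef
  have hβ : ∀ p, p ≠ p₀ → h p = β := by
    intro p hp
    obtain ⟨k, hk1, hk2⟩ := h2 (a := p₀) (b := p₁) (c := p₀) (d := p) (Ne.symm hp₁) (Ne.symm hp)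
    have hk : k ∈ MulAction.stabilizer G p₀ := MulAction.mem_stabilizer_iff.mpr hk1
    have := hinv k hk p
    rw [← hk2, inv_smul_smul] at this
    rw [← hk2, hβdef, this]
  have hsum : α + ((Fintype.card Ω : ℂ) - 1) * β = 0 := by
    have e := mem_sumZero.mp (hKU hhK)
    rw [← Finset.add_sum_erase _ _ (Finset.mem_univ p₀)] at e
    rw [Finset.sum_congr rfl (fun p hp => hβ p (Finset.ne_of_mem_erase hp)), Finset.sum_const,
      Finset.card_erase_of_mem (Finset.mem_univ _), Finset.card_univ, nsmul_eq_mul,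
      Nat.cast_sub (by omega)] at e
    simpa using e
  have hne : α - β ≠ 0 := by
    intro h0
    have hαβ : α = β := sub_eq_zero.mp h0
    have hN : (Fintype.card Ω : ℂ) ≠ 0 := Nat.cast_ne_zero.mpr (by omega)
    have e : (Fintype.card Ω : ℂ) * β = 0 := by
      rw [hαβ] at hsum
      linear_combination hsum
    have hβ0 : β = 0 := (mul_eq_zero.mp e).resolve_left hN
    apply hα
    rw [hαβ, hβ0]
  apply le_antisymm hKU
  intro F hF
  have hw : ∀ p : Ω, ∃ w ∈ K, w p = α ∧ ∀ p', p' ≠ p → w p' = β := by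
    intro p
    obtain ⟨p', hp'⟩ := hother p
    obtain ⟨g, hg1, hg2⟩ := h2 (a := p₀) (b := p₁) (c := p) (d := p') (Ne.symm hp₁) (Ne.symm hp')
    refine ⟨permMon G Ω g h, hK _ _ hhK, ?_, ?_⟩
    · rw [permMon_apply, ← hg1, inv_smul_smul]
    · intro q hq
      rw [permMon_apply]
      apply hβ
      intro h0
      apply hq
      rw [← hg1, ← h0, smul_inv_smul]
  choose w hwK hw1 hw2 using hw
  have hF0 := mem_sumZero.mp hF
  have key : ∑ p, F p • w p = (α - β) • F := by
    funext q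
    rw [Finset.sum_apply, Pi.smul_apply, ← Finset.add_sum_erase _ _ (Finset.mem_univ q)]
    have e : ∀ p ∈ Finset.univ.erase q, (F p • w p) q = F p * β := by
      intro p hp
      rw [Pi.smul_apply, hw2 p q (Ne.symm (Finset.ne_of_mem_erase hp)), smul_eq_mul]
    rw [Finset.sum_congr rfl e, ← Finset.sum_mul, Pi.smul_apply, hw1, smul_eq_mul, smul_eq_mul]
    have e2 : ∑ p ∈ Finset.univ.erase q, F p = - F q := by
      rw [← Finset.add_sum_erase _ _ (Finset.mem_univ q)] at hF0
      linear_combination hF0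
    rw [e2]
    ring
  have hmem : (α - β) • F ∈ K := by
    rw [← key]
    exact Submodule.sum_mem _ fun p _ => Submodule.smul_mem _ _ (hwK p)
  exact (Submodule.smul_mem_iff _ hne).mp hmem

/-- A doubly transitive action gives an irreducible representation of degree `|Ω| - 1`. -/
theorem exists_irred_two_trans (h2 : ∀ {a b c d : Ω}, a ≠ b → c ≠ d → ∃ g : G, g • a = c ∧ g • b = d)
    (hΩ : 2 ≤ Fintype.card Ω) {d : ℕ} (hd : Fintype.card Ω - 1 = d) :
    ∃ ρ : Representation ℂ G (Fin d → ℂ), ρ.IsIrreducible := by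
  have : Nonempty Ω := Fintype.card_pos_iff.mp (by omega)
  refine Cfsg.Agent.Lib.MinDeg.Weil.Odd.exists_irred_of (MonoidHom.toHomUnits (permMon G Ω))
    (sumZero Ω) ?_ ?_ (by rw [finrank_sumZero, hd]) (by omega)
  · intro g f hf
    exact sumZero_invariant g hf
  · intro K hKU hK0 hK
    exact sumZero_irred h2 hΩ K hKU hK0 hK

end Cfsg.Agent.Lib.MinDeg.SLn
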