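import Cfsg.Agent.Lib.MinDeg.SLn.ClaimB

/-!
# The lower bound for the degree of a nontrivial irreducible representation of `SL_n(q)`
-/

set_option autoImplicit false
set_option linter.unusedSectionVars false
set_option linter.unusedSimpArgs false
set_option linter.unusedVariables false

namespace Cfsg.Agent.Lib.MinDeg.SLn

open Matrix Cfsg.Agent.Lib.MinIndex.SLTv

variable {ι F : Type*} [Fintype ι] [DecidableEq ι] [Field F] [Fintype F] [DecidableEq F]
variable {U : Type*} [AddCommGroup U] [Module ℂ U] [FiniteDimensional ℂ U]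

local notation "tr" => LinearMap.trace ℂ U

variable {ρ : SpecialLinearGroup ι F →* Module.End ℂ U} {ψ : AddChar F ℂ}

variable {a b c : ι}

/-- Multiples of `e_a`. -/
def OnL (a : ι) (u : ι → F) : Prop := ∀ j, j ≠ a → u j = 0

instance OnL_dec (a : ι) : DecidablePred (OnL (F := F) a) := fun x => by
  unfold OnL
  infer_instance

theorem OnL.eq {u : ι → F} (hu : OnL a u) : u = 0 + u a • bas a := by
  ext j
  by_cases hj : j = a
  · subst hj
    simp
  · simp [hu j hj, bas_apply_ne hj]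

theorem card_OnL : (Finset.univ.filter (OnL (F := F) a)).card = Fintype.card F := by
  rw [← Finset.card_univ (α := F)]
  symm
  refine Finset.card_bij (fun c _ => c • (bas a : ι → F)) ?_ ?_ ?_
  · intro c _
    simp only [Finset.mem_filter, Finset.mem_univ, true_and]
    intro j hj
    simp [bas_apply_ne hj]
  · intro c _ c' _ h
    have := congrFun h a
    simpa using this
  · intro u hu
    simp only [Finset.mem_filter, Finset.mem_univ, true_and] at hu
    refine ⟨u a, Finset.mem_univ _, ?_⟩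
    have := hu.eq
    rw [zero_add] at this
    exact this.symm

theorem not_OnL_li {u : ι → F} (hu : ¬ OnL a u) :
    ∀ α β : F, α • (bas a : ι → F) + β • u = 0 → α = 0 ∧ β = 0 := by
  intro α β hc
  unfold OnL at hu
  push Not at hu
  obtain ⟨j, hj, huj⟩ := hu
  have cj := congrFun hc j
  simp [bas_apply_ne hj, huj] at cj
  subst cj
  simp only [zero_smul, add_zero] at hc
  have ca := congrFun hc a
  simp at ca
  exact ⟨ca, rfl⟩

theorem L_eq_zero_of_OnL {u : ι → F} (hu : OnL a u) : L ρ ψ (bas a) u = L ρ ψ (bas a) 0 := by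
  conv_lhs => rw [hu.eq]
  rw [L_add_smul]

theorem bas_ne_zero (a : ι) : (bas a : ι → F) ≠ 0 := by
  intro h0
  have := congrFun h0 a
  simp at this

/-- The trace formula for the dimension. -/
theorem dim_formula (hψ : ψ 1 ≠ 1) (hab : a ≠ b) (h3 : 3 ≤ Fintype.card ι) :
    (Fintype.card F : ℂ) * (Module.finrank ℂ U : ℂ) =
      (Fintype.card F : ℂ) * tr (L ρ ψ (bas a) 0) +
        ((Fintype.card F : ℂ) ^ Fintype.card ι - Fintype.card F) * tr (PP ρ ψ a b) := by
  classical
  have e := sum_L (ρ := ρ) (ψ := ψ) hψ (bas_ne_zero (F := F) a)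
  have e1 := congrArg tr e
  rw [map_sum (LinearMap.trace ℂ U), map_smul, LinearMap.trace_one, smul_eq_mul] at e1
  rw [← e1, ← Finset.sum_filter_add_sum_filter_not Finset.univ (OnL (F := F) a)]
  congr 1
  · rw [Finset.sum_congr rfl (g := fun _ => tr (L ρ ψ (bas a) 0)) (fun u hu => by
      rw [L_eq_zero_of_OnL (Finset.mem_filter.mp hu).2]), Finset.sum_const, card_OnL, nsmul_eq_mul]
  · have e2 : ∀ u ∈ Finset.univ.filter (fun u : ι → F => ¬ OnL a u), tr (L ρ ψ (bas a) u) =
        tr (PP ρ ψ a b) := by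
      intro u hu
      have hu' := (Finset.mem_filter.mp hu).2
      obtain ⟨g, hg1, hg2⟩ := exists_pair (F := F) hab h3 (not_OnL_li hu')
      rw [L_eq_conj hg1 hg2, tr_conj]
    rw [Finset.sum_congr rfl e2, Finset.sum_const, nsmul_eq_mul]
    congr 1
    have h4 := Finset.card_filter_add_card_filter_not (s := (Finset.univ : Finset (ι → F))) (OnL (F := F) a)
    rw [card_OnL, Finset.card_univ, Fintype.card_fun] at h4
    have h5 : ((Finset.univ.filter (fun u : ι → F => ¬ OnL a u)).card : ℂ) + Fintype.card F =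
        (Fintype.card F : ℂ) ^ Fintype.card ι := by
      rw [add_comm]
      exact_mod_cast h4
    rw [← h5]
    ring

/-- If `A` acts trivially the representation is trivial. -/
theorem trivial_of_row (h2 : 2 ≤ Fintype.card ι)
    (h : ∀ y (hy : y ⬝ᵥ (bas a : ι → F) = 0), ρ (tv (bas a) y hy) = 1) (g : SpecialLinearGroup ι F) :
    ρ g = 1 := by
  let K : Subgroup (SpecialLinearGroup ι F) :=
    { carrier := {g | ρ g = 1}
      mul_mem' := by
        intro x y hx hy
        show ρ (x * y) = 1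
        rw [map_mul, hx, hy, one_mul]
      one_mem' := map_one ρ
      inv_mem' := by
        intro x hx
        show ρ x⁻¹ = 1
        have := rho_inv_mul (ρ := ρ) x
        rwa [hx, mul_one] at this }
  have hK : K = ⊤ := by
    apply eq_top_of_tv_mem
    intro z φ hz hz0 hφ0
    obtain ⟨k, hk⟩ := exists_sl_mulVec (F := F) h2 (bas_ne_zero a) hz0
    have h1 : vg φ k ⬝ᵥ (bas a : ι → F) = 0 := by
      rw [vg_dot_gv]
      show φ ⬝ᵥ ((k : Matrix ι ι F) *ᵥ bas a) = 0
      rw [hk, hz]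
    have e : k * tv (bas a) (vg φ k) h1 * k⁻¹ = tv z φ hz := by
      rw [tv_conj']
      apply tv_congr
      show vecMulVec ((k : Matrix ι ι F) *ᵥ bas a) _ = _
      rw [hk, vg_vg_inv]
    show ρ (tv z φ hz) = 1
    rw [← e, map_mul, map_mul, h _ h1, mul_one, rho_mul_inv]
  have : g ∈ K := by rw [hK]; trivial
  exact this

/-- The case of `m = 0`. -/
theorem trivial_of_P_zero (hψ : ψ 1 ≠ 1) (hab : a ≠ b) (h3 : 3 ≤ Fintype.card ι)
    (hP : PP ρ ψ a b = 0) (g : SpecialLinearGroup ι F) : ρ g = 1 := by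
  classical
  have e := sum_L (ρ := ρ) (ψ := ψ) hψ (bas_ne_zero (F := F) a)
  rw [← Finset.sum_filter_add_sum_filter_not Finset.univ (OnL (F := F) a)] at e
  have e2 : ∀ u ∈ Finset.univ.filter (fun u : ι → F => ¬ OnL a u), L ρ ψ (bas a) u = 0 := by
    intro u hu
    have hu' := (Finset.mem_filter.mp hu).2
    obtain ⟨g, hg1, hg2⟩ := exists_pair (F := F) hab h3 (not_OnL_li hu')
    rw [L_eq_conj hg1 hg2, hP]
    simp
  rw [Finset.sum_eq_zero e2, add_zero, Finset.sum_congr rfl (g := fun _ => L ρ ψ (bas a) 0) (fun u hu => by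
      rw [L_eq_zero_of_OnL (Finset.mem_filter.mp hu).2]), Finset.sum_const, card_OnL,
      ← Nat.cast_smul_eq_nsmul ℂ] at e
  have hq : (Fintype.card F : ℂ) ≠ 0 := Nat.cast_ne_zero.mpr Fintype.card_ne_zero
  have e3 : L ρ ψ (bas a) 0 = 1 := smul_right_injective _ hq e
  apply trivial_of_row (a := a) (by omega)
  intro y hy
  have e4 := L_left (ρ := ρ) (ψ := ψ) (bas a) 0 y hy
  rw [e3, mul_one, dotProduct_zero, AddChar.map_zero_eq_one, one_smul] at e4
  exact e4

/-- Arithmetic of the final step. -/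
theorem final_arith (q w D y : ℤ) (hq : 2 ≤ q) (hw : 1 ≤ w) (hD : 0 ≤ D) (hy : 1 ≤ y)
    (h : ((q ^ 2 - 1) * y * q + (q * w - q ^ 2) * (y + q - 1)) * D =
      q * (q * w - 1) * (D - (w - 1)) * (y + q - 1)) :
    q * (w - 1) ≤ (q - 1) * D := by
  have hz : 0 < y + q - 1 := by omega
  have h1 : 0 < q * w - 1 := by nlinarith
  have h2 : (y + q - 1) ≤ y * q := by nlinarith
  have h3 : 0 ≤ q ^ 2 - 1 := by nlinarith
  have h4 : (q ^ 2 - 1) * (y + q - 1) * D ≤ (q ^ 2 - 1) * y * q * D := by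
    have : (q ^ 2 - 1) * (y + q - 1) ≤ (q ^ 2 - 1) * (y * q) := mul_le_mul_of_nonneg_left h2 h3
    have h5 := mul_le_mul_of_nonneg_right this hD
    linarith [h5]
  have h6 : ((q * w - 1) * (y + q - 1)) * D ≤ ((q * w - 1) * (y + q - 1)) * (q * (D - (w - 1))) := by
    nlinarith
  have h7 := le_of_mul_le_mul_left h6 (mul_pos h1 hz)
  linarith

/-- The case `m = 1`. -/
theorem main_case (hψ : ψ 1 ≠ 1) (hab : a ≠ b) (hac : a ≠ c) (hbc : b ≠ c) (hgood : GoodSL ι F)
    (htr : LinearMap.trace ℂ U (PP ρ ψ a b) = (1 : ℂ))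
    (hSchur : ∀ T : Module.End ℂ U, (∀ g, ρ g * T = T * ρ g) → ∃ c : ℂ, T = c • 1) :
    Fintype.card F * (Fintype.card F ^ (Fintype.card ι - 1) - 1) ≤
      (Fintype.card F - 1) * Module.finrank ℂ U := by
  classical
  have h3 := hgood.three_le
  have hdim := dim_formula (ρ := ρ) (ψ := ψ) hψ hab h3
  rw [htr, mul_one] at hdim
  set Q : ℂ := (Fintype.card F : ℂ) with hQ
  have hQ0 : Q ≠ 0 := Nat.cast_ne_zero.mpr Fintype.card_ne_zero
  set D : ℂ := (Module.finrank ℂ U : ℂ) with hD
  set w : ℕ := Fintype.card F ^ (Fintype.card ι - 1) with hw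
  have hpow : (Fintype.card F : ℕ) ^ Fintype.card ι = Fintype.card F * w := by
    rw [hw, ← pow_succ']
    congr 1
    omega
  have hpowc : Q ^ Fintype.card ι = Q * (w : ℂ) := by
    rw [hQ]
    exact_mod_cast hpow
  set e := tr (L ρ ψ (bas a) 0) with he
  have hdim' : D = e + ((w : ℂ) - 1) := by
    apply mul_left_cancel₀ hQ0
    rw [hdim, hpowc]
    ring
  -- the operator `S`
  set S : Module.End ℂ U := ∑ x ∈ Finset.univ.erase (0 : ι → F), L ρ ψ x 0 with hS
  have hSG : ∀ g, ρ g * S = S * ρ g := by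
    intro h
    have e0' : ρ h * S * ρ h⁻¹ = S := by
      rw [hS, Finset.mul_sum, Finset.sum_mul]
      have e0 : ∀ x : ι → F, ρ h * L ρ ψ x 0 * ρ h⁻¹ = L ρ ψ (gv h x) 0 := by
        intro x
        rw [L_conj, gv_zero]
      simp only [e0]
      refine Finset.sum_nbij' (gv h) (gv h⁻¹) ?_ ?_ ?_ ?_ ?_
      · intro x hx
        rw [Finset.mem_erase] at hx ⊢
        refine ⟨fun h0 => hx.1 ?_, Finset.mem_univ _⟩
        rw [← gv_inv_gv h x, h0, gv_zero]
      · intro x hx
        rw [Finset.mem_erase] at hx ⊢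
        refine ⟨fun h0 => hx.1 ?_, Finset.mem_univ _⟩
        rw [← gv_gv_inv h x, h0, gv_zero]
      · intro x _
        exact gv_inv_gv h x
      · intro x _
        exact gv_gv_inv h x
      · intro x _
        rfl
    calc ρ h * S = ρ h * S * (ρ h⁻¹ * ρ h) := by rw [rho_inv_mul, mul_one]
      _ = (ρ h * S * ρ h⁻¹) * ρ h := by simp only [mul_assoc]
      _ = S * ρ h := by rw [e0']
  obtain ⟨lam, hlam⟩ := hSchur S hSG
  -- trace of `S`
  have htrS : lam * D = (Q * (w : ℂ) - 1) * e := by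
    have e1 : tr S = lam * D := by
      rw [hlam, map_smul, LinearMap.trace_one, smul_eq_mul]
    have e2 : tr S = (Q * (w : ℂ) - 1) * e := by
      rw [hS, map_sum (LinearMap.trace ℂ U)]
      have e3 : ∀ x ∈ Finset.univ.erase (0 : ι → F), tr (L ρ ψ x 0) = e := by
        intro x hx
        rw [Finset.mem_erase] at hx
        obtain ⟨g, hg⟩ := exists_sl_mulVec (F := F) (by omega) (bas_ne_zero a) hx.1
        have e0 : L ρ ψ x 0 = ρ g * L ρ ψ (bas a) 0 * ρ g⁻¹ := by
          rw [L_conj, gv_zero]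
          congr 1
          exact hg.symm
        rw [e0, tr_conj]
      rw [Finset.sum_congr rfl e3, Finset.sum_const, nsmul_eq_mul, Finset.card_erase_of_mem (Finset.mem_univ _),
        Finset.card_univ, Fintype.card_fun, hpow, Nat.cast_sub (Nat.mul_pos Fintype.card_pos
          (Nat.pow_pos Fintype.card_pos)), Nat.cast_mul, Nat.cast_one]
    rw [← e1, e2]
  -- trace of `S P`
  have htrSP : lam = (∑ x ∈ SPi F a b, tr (L ρ ψ x 0 * PP ρ ψ a b)) +
      (Q * (w : ℂ) - Q ^ 2) * Q⁻¹ := by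
    have e1 : tr (S * PP ρ ψ a b) = lam := by
      rw [hlam, smul_mul_assoc, one_mul, map_smul, htr, smul_eq_mul, mul_one]
    rw [← e1, hS, Finset.sum_mul, map_sum (LinearMap.trace ℂ U),
      ← Finset.sum_filter_add_sum_filter_not _ (InPi (F := F) a b)]
    congr 1
    · apply Finset.sum_congr
      · ext x
        simp [SPi, and_comm]
      · intro _ _
        rfl
    · have hf : (Finset.univ.erase (0 : ι → F)).filter (fun x => ¬ InPi a b x) =
          Finset.univ.filter (fun x : ι → F => ¬ InPi a b x) := by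
        ext x
        simp only [Finset.mem_filter, Finset.mem_erase, Finset.mem_univ, and_true, true_and,
          and_iff_right_iff_imp]
        intro h h0
        apply h
        rw [h0]
        intro j _ _
        rfl
      rw [hf]
      have e3 : ∀ x ∈ Finset.univ.filter (fun x : ι → F => ¬ InPi a b x),
          tr (L ρ ψ x 0 * PP ρ ψ a b) = Q⁻¹ := by
        intro x hx
        have hx' := (Finset.mem_filter.mp hx).2
        unfold InPi at hx'
        push Not at hx'
        obtain ⟨j, hja, hjb, hxj⟩ := hx'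
        exact tr_E_P htr hab hac hbc hgood hψ hja hjb hxj
      rw [Finset.sum_congr rfl e3, Finset.sum_const, nsmul_eq_mul]
      congr 1
      have h4 := Finset.card_filter_add_card_filter_not (s := (Finset.univ : Finset (ι → F)))
        (InPi (F := F) a b)
      rw [card_InPi hab, Finset.card_univ, Fintype.card_fun, hpow] at h4
      have h5 : (Fintype.card F : ℂ) ^ 2 +
          ((Finset.univ.filter (fun x : ι → F => ¬ InPi a b x)).card : ℂ) =
          (Fintype.card F : ℂ) * w := by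
        exact_mod_cast h4
      rw [← hQ] at h5
      linear_combination h5
  -- the plane
  obtain ⟨y, hy0, hy⟩ := gl2_identity (ρ := ρ) (ψ := ψ) htr hab hac hbc hgood hψ
  set cc := ∑ x ∈ SPi F a b, tr (L ρ ψ x 0 * PP ρ ψ a b) with hcc
  have hmain : ((Q ^ 2 - 1) * (y : ℂ) * Q + (Q * (w : ℂ) - Q ^ 2) * ((y : ℂ) + Q - 1)) * D =
      Q * (Q * (w : ℂ) - 1) * (D - ((w : ℂ) - 1)) * ((y : ℂ) + Q - 1) := by
    have e1 : lam * Q = cc * Q + (Q * (w : ℂ) - Q ^ 2) := by
      rw [htrSP]
      field_simp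
    have e2 : D - ((w : ℂ) - 1) = e := by
      rw [hdim']
      ring
    rw [e2, ← hy] at *
    have e3 : (cc * ((y : ℂ) + Q - 1) * Q + (Q * (w : ℂ) - Q ^ 2) * ((y : ℂ) + Q - 1)) * D =
        (lam * Q) * ((y : ℂ) + Q - 1) * D := by
      rw [e1]
      ring
    rw [e3]
    linear_combination (Q * ((y : ℂ) + Q - 1)) * htrS
  have hq2 : (2 : ℤ) ≤ (Fintype.card F : ℤ) := by
    exact_mod_cast Fintype.one_lt_card (α := F)
  have hw1 : (1 : ℤ) ≤ (w : ℤ) := by
    have : 0 < w := Nat.pow_pos Fintype.card_pos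
    exact_mod_cast this
  have hy1 : (1 : ℤ) ≤ (y : ℤ) := by
    have : 0 < y := Nat.pos_of_ne_zero hy0
    exact_mod_cast this
  have hmainZ : (((Fintype.card F : ℤ) ^ 2 - 1) * (y : ℤ) * (Fintype.card F : ℤ) +
        ((Fintype.card F : ℤ) * (w : ℤ) - (Fintype.card F : ℤ) ^ 2) *
          ((y : ℤ) + (Fintype.card F : ℤ) - 1)) * (Module.finrank ℂ U : ℤ) =
      (Fintype.card F : ℤ) * ((Fintype.card F : ℤ) * (w : ℤ) - 1) *
        ((Module.finrank ℂ U : ℤ) - ((w : ℤ) - 1)) * ((y : ℤ) + (Fintype.card F : ℤ) - 1) := by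
    have := hmain
    rw [hQ, hD] at this
    exact_mod_cast this
  have hfin := final_arith _ _ _ _ hq2 hw1 (Int.natCast_nonneg _) hy1 hmainZ
  have hfin2 : ((Fintype.card F * (w - 1) : ℕ) : ℤ) ≤ (((Fintype.card F - 1) * Module.finrank ℂ U : ℕ) : ℤ) := by
    have hw' : 1 ≤ w := by exact_mod_cast hw1
    have hq' : 1 ≤ Fintype.card F := Fintype.card_pos
    push_cast [Nat.cast_sub hw', Nat.cast_sub hq']
    exact hfin
  exact_mod_cast hfin2

/-- The abstract lower bound. -/
theorem abstract_bound (ψ : AddChar F ℂ) (hψ : ψ 1 ≠ 1) (hab : a ≠ b) (hac : a ≠ c) (hbc : b ≠ c)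
    (hgood : GoodSL ι F) (hne : ∃ g, ρ g ≠ 1)
    (hSchur : ∀ T : Module.End ℂ U, (∀ g, ρ g * T = T * ρ g) → ∃ c : ℂ, T = c • 1) :
    Fintype.card F * (Fintype.card F ^ (Fintype.card ι - 1) - 1) ≤
      (Fintype.card F - 1) * Module.finrank ℂ U := by
  classical
  have h3 := hgood.three_le
  have hdim := dim_formula (ρ := ρ) (ψ := ψ) hψ hab h3
  have hPid := PP_idem (ρ := ρ) (ψ := ψ) (a := a) (b := b)
  have hEid : L ρ ψ (bas a) 0 * L ρ ψ (bas a) 0 = L ρ ψ (bas a) 0 := L_idem _ _
  have hm := idem_trace hPid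
  have he := idem_trace hEid
  set m := Module.finrank ℂ (LinearMap.range (PP ρ ψ a b)) with hmdef
  set e := Module.finrank ℂ (LinearMap.range (L ρ ψ (bas a) 0)) with hedef
  rw [hm, he] at hdim
  set w : ℕ := Fintype.card F ^ (Fintype.card ι - 1) with hw
  have hpow : (Fintype.card F : ℕ) ^ Fintype.card ι = Fintype.card F * w := by
    rw [hw, ← pow_succ']
    congr 1
    omega
  have hw1 : 1 ≤ w := Nat.pow_pos Fintype.card_pos
  have hq2 : 2 ≤ Fintype.card F := Fintype.one_lt_card
  have hdimN : Module.finrank ℂ U = e + (w - 1) * m := by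
    have hq0 : (Fintype.card F : ℂ) ≠ 0 := Nat.cast_ne_zero.mpr Fintype.card_ne_zero
    have h1 : (Module.finrank ℂ U : ℂ) = (e : ℂ) + ((w : ℂ) - 1) * m := by
      apply mul_left_cancel₀ hq0
      rw [hdim]
      have : (Fintype.card F : ℂ) ^ Fintype.card ι = (Fintype.card F : ℂ) * w := by
        exact_mod_cast hpow
      rw [this]
      ring
    have h2 : (Module.finrank ℂ U : ℂ) = ((e + (w - 1) * m : ℕ) : ℂ) := by
      rw [h1]
      push_cast [Nat.cast_sub hw1]
      ring
    exact_mod_cast h2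
  rcases Nat.lt_or_ge m 1 with hm0 | hm1
  · exfalso
    have hm00 : m = 0 := by omega
    have hP0 : PP ρ ψ a b = 0 := idem_eq_zero hPid (by rw [hm, hm00]; simp)
    obtain ⟨g, hg⟩ := hne
    exact hg (trivial_of_P_zero hψ hab h3 hP0 g)
  rcases Nat.lt_or_ge m 2 with hm2 | hm2
  · have hm11 : m = 1 := by omega
    exact main_case hψ hab hac hbc hgood (by rw [hm, hm11]; simp) hSchur
  · rw [hdimN]
    have h4 : 2 * (w - 1) ≤ e + (w - 1) * m := by
      nlinarith [Nat.zero_le e, Nat.zero_le (w - 1)]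
    have h5 : Fintype.card F ≤ (Fintype.card F - 1) * 2 := by omega
    calc Fintype.card F * (w - 1) ≤ ((Fintype.card F - 1) * 2) * (w - 1) :=
          Nat.mul_le_mul_right _ h5
      _ = (Fintype.card F - 1) * (2 * (w - 1)) := by ring
      _ ≤ (Fintype.card F - 1) * (e + (w - 1) * m) := Nat.mul_le_mul_left _ h4

end Cfsg.Agent.Lib.MinDeg.SLn
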