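import Cfsg.Agent.Lib.MinIndex.SLTv
import Cfsg.Agent.Lib.Linalg.Bridge

/-!
# The operators `L x u` for `SL_n(F)` on a complex representation

`L x u` is the projection to the `ψ(y·u)`-weight space of the group of transvections
`tv x y`, `y·x = 0`. All the identities below are at the level of operators and traces.
-/

set_option autoImplicit false
set_option linter.unusedSectionVars false
set_option linter.unusedSimpArgs false
set_option linter.unusedVariables false

namespace Cfsg.Agent.Lib.MinDeg.SLn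

open Matrix Cfsg.Agent.Lib.MinIndex.SLTv

variable {ι F : Type*} [Fintype ι] [DecidableEq ι] [Field F] [Fintype F] [DecidableEq F]
variable {U : Type*} [AddCommGroup U] [Module ℂ U]

/-- The vectors orthogonal to `x`. -/
abbrev Yp (x : ι → F) := {y : ι → F // y ⬝ᵥ x = 0}

/-- The action of a matrix in `SL` on a vector. -/
abbrev gv (g : SpecialLinearGroup ι F) (x : ι → F) : ι → F := (g : Matrix ι ι F) *ᵥ x

/-- The action of an element of `SL` on a row vector, on the right. -/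
abbrev vg (y : ι → F) (g : SpecialLinearGroup ι F) : ι → F := y ᵥ* (g : Matrix ι ι F)

theorem gv_mul (g h : SpecialLinearGroup ι F) (x : ι → F) : gv (g * h) x = gv g (gv h x) := by
  simp only [gv, coe_mul', mulVec_mulVec]

theorem gv_one (x : ι → F) : gv (1 : SpecialLinearGroup ι F) x = x := by
  simp only [gv, coe_one', one_mulVec]

theorem gv_inv_gv (g : SpecialLinearGroup ι F) (x : ι → F) : gv g⁻¹ (gv g x) = x := by
  rw [← gv_mul, inv_mul_cancel, gv_one]

theorem gv_gv_inv (g : SpecialLinearGroup ι F) (x : ι → F) : gv g (gv g⁻¹ x) = x := by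
  rw [← gv_mul, mul_inv_cancel, gv_one]

theorem gv_add (g : SpecialLinearGroup ι F) (x x' : ι → F) : gv g (x + x') = gv g x + gv g x' :=
  mulVec_add _ _ _

theorem gv_smul (g : SpecialLinearGroup ι F) (c : F) (x : ι → F) : gv g (c • x) = c • gv g x :=
  mulVec_smul _ _ _

theorem vg_dot_gv (y : ι → F) (g : SpecialLinearGroup ι F) (x : ι → F) :
    vg y g ⬝ᵥ x = y ⬝ᵥ gv g x := by
  rw [gv, vg, dotProduct_mulVec]

theorem vg_inv_dot_gv (y : ι → F) (g : SpecialLinearGroup ι F) (x : ι → F) :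
    vg y g⁻¹ ⬝ᵥ gv g x = y ⬝ᵥ x := by
  rw [vg_dot_gv, gv_inv_gv]

theorem tv_conj' (g : SpecialLinearGroup ι F) (x y : ι → F) (h : y ⬝ᵥ x = 0) :
    g * tv x y h * g⁻¹ = tv (gv g x) (vg y g⁻¹) (by rw [vg_inv_dot_gv, h]) :=
  tv_conj g x y h

theorem gv_tv (x y : ι → F) (h : y ⬝ᵥ x = 0) (z : ι → F) :
    gv (tv x y h) z = z + (y ⬝ᵥ z) • x := by
  simp only [gv, coe_tv, add_mulVec, one_mulVec, vecMulVec_mulVec]
  ext i
  simp [mul_comm]

/-- Conjugation by `g` maps the orthogonal of `x` to the orthogonal of `g x`. -/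
def Yconj (g : SpecialLinearGroup ι F) (x : ι → F) : Yp x ≃ Yp (gv g x) where
  toFun y := ⟨vg y.1 g⁻¹, by rw [vg_inv_dot_gv]; exact y.2⟩
  invFun y := ⟨vg y.1 g, by rw [vg_dot_gv]; exact y.2⟩
  left_inv y := by
    apply Subtype.ext
    show vg (vg y.1 g⁻¹) g = y.1
    simp only [vg, vecMul_vecMul, coe_inv_mul, vecMul_one]
  right_inv y := by
    apply Subtype.ext
    show vg (vg y.1 g) g⁻¹ = y.1
    simp only [vg, vecMul_vecMul, coe_mul_inv, vecMul_one]

/-- Translation on the orthogonal of `x`. -/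
def Yshift (x : ι → F) (y : Yp x) : Yp x ≃ Yp x where
  toFun y' := ⟨y.1 + y'.1, by rw [add_dotProduct, y.2, y'.2, add_zero]⟩
  invFun y' := ⟨y'.1 - y.1, by rw [sub_dotProduct, y.2, y'.2, sub_zero]⟩
  left_inv y' := by
    apply Subtype.ext
    show y.1 + y'.1 - y.1 = y'.1
    abel
  right_inv y' := by
    apply Subtype.ext
    show y.1 + (y'.1 - y.1) = y'.1
    abel

variable (ρ : SpecialLinearGroup ι F →* Module.End ℂ U) (ψ : AddChar F ℂ)

/-- The weight projection of the group of transvections with centre `x`. -/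
noncomputable def L (x u : ι → F) : Module.End ℂ U :=
  (Fintype.card (Yp x) : ℂ)⁻¹ • ∑ y : Yp x, ψ (-(y.1 ⬝ᵥ u)) • ρ (tv x y.1 y.2)

variable {ρ ψ}

instance Yp_nonempty (x : ι → F) : Nonempty (Yp x) := ⟨⟨0, zero_dotProduct _⟩⟩

theorem card_Yp_ne (x : ι → F) : (Fintype.card (Yp x) : ℂ) ≠ 0 :=
  Nat.cast_ne_zero.mpr Fintype.card_ne_zero

theorem psi_neg_mul (t : F) : ψ (-t) * ψ t = 1 := by
  rw [← AddChar.map_add_eq_mul, neg_add_cancel, AddChar.map_zero_eq_one]

theorem L_conj (g : SpecialLinearGroup ι F) (x u : ι → F) :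
    ρ g * L ρ ψ x u * ρ g⁻¹ = L ρ ψ (gv g x) (gv g u) := by
  unfold L
  rw [Fintype.card_congr (Yconj g x), mul_smul_comm, smul_mul_assoc]
  congr 1
  rw [Finset.mul_sum, Finset.sum_mul]
  refine Fintype.sum_equiv (Yconj g x) _ _ fun y => ?_
  rw [mul_smul_comm, smul_mul_assoc, ← map_mul, ← map_mul, tv_conj' g x y.1 y.2]
  have e : (Yconj g x y).1 ⬝ᵥ gv g u = y.1 ⬝ᵥ u := vg_inv_dot_gv y.1 g u
  rw [e]
  rfl

theorem L_left (x u y : ι → F) (hy : y ⬝ᵥ x = 0) :
    ρ (tv x y hy) * L ρ ψ x u = ψ (y ⬝ᵥ u) • L ρ ψ x u := by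
  unfold L
  rw [mul_smul_comm, smul_comm]
  congr 1
  rw [Finset.mul_sum, Finset.smul_sum]
  refine Fintype.sum_equiv (Yshift x ⟨y, hy⟩) _ _ fun y' => ?_
  rw [mul_smul_comm, ← map_mul, tv_mul_right, smul_smul]
  show ψ (-(y'.1 ⬝ᵥ u)) • ρ (tv x (y + y'.1) _) =
    (ψ (y ⬝ᵥ u) * ψ (-((y + y'.1) ⬝ᵥ u))) • ρ (tv x (y + y'.1) _)
  congr 1
  rw [← AddChar.map_add_eq_mul, add_dotProduct]
  congr 1
  ring

theorem L_right (x u y : ι → F) (hy : y ⬝ᵥ x = 0) :
    L ρ ψ x u * ρ (tv x y hy) = ψ (y ⬝ᵥ u) • L ρ ψ x u := by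
  unfold L
  rw [smul_mul_assoc, smul_comm]
  congr 1
  rw [Finset.sum_mul, Finset.smul_sum]
  refine Fintype.sum_equiv (Yshift x ⟨y, hy⟩) _ _ fun y' => ?_
  rw [smul_mul_assoc, ← map_mul, tv_mul_right, smul_smul]
  have : y'.1 + y = y + y'.1 := add_comm _ _
  simp only [this]
  show ψ (-(y'.1 ⬝ᵥ u)) • ρ (tv x (y + y'.1) _) =
    (ψ (y ⬝ᵥ u) * ψ (-((y + y'.1) ⬝ᵥ u))) • ρ (tv x (y + y'.1) _)
  congr 1
  rw [← AddChar.map_add_eq_mul, add_dotProduct]
  congr 1
  ring

theorem L_idem (x u : ι → F) : L ρ ψ x u * L ρ ψ x u = L ρ ψ x u := by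
  have h : L ρ ψ x u * L ρ ψ x u = (Fintype.card (Yp x) : ℂ)⁻¹ •
      ∑ y : Yp x, ψ (-(y.1 ⬝ᵥ u)) • (ρ (tv x y.1 y.2) * L ρ ψ x u) := by
    conv_lhs => enter [1]; rw [L]
    rw [smul_mul_assoc, Finset.sum_mul]
    simp only [smul_mul_assoc]
  rw [h]
  simp only [L_left, smul_smul, ← AddChar.map_add_eq_mul, neg_add_cancel,
    AddChar.map_zero_eq_one, one_smul, Finset.sum_const, Finset.card_univ]
  rw [← Nat.cast_smul_eq_nsmul ℂ, smul_smul, inv_mul_cancel₀ (card_Yp_ne x), one_smul]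

theorem L_add_smul (x u : ι → F) (c : F) : L ρ ψ x (u + c • x) = L ρ ψ x u := by
  unfold L
  congr 1
  refine Finset.sum_congr rfl fun y _ => ?_
  rw [dotProduct_add, dotProduct_smul, y.2, smul_zero, add_zero]

/-- Two weight projections for different weights multiply to zero. -/
theorem L_orth (x u u' : ι → F) (hψ : ψ 1 ≠ 1) (y : ι → F) (hy : y ⬝ᵥ x = 0)
    (hne : y ⬝ᵥ u ≠ y ⬝ᵥ u') : L ρ ψ x u * L ρ ψ x u' = 0 := by
  set d := y ⬝ᵥ u - y ⬝ᵥ u' with hd
  have hd0 : d ≠ 0 := sub_ne_zero.mpr hne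
  set y₁ := d⁻¹ • y with hy₁
  have hy₁0 : y₁ ⬝ᵥ x = 0 := by rw [hy₁, smul_dotProduct, hy, smul_zero]
  have h1 : y₁ ⬝ᵥ u = y₁ ⬝ᵥ u' + 1 := by
    rw [hy₁, smul_dotProduct, smul_dotProduct, smul_eq_mul, smul_eq_mul]
    field_simp
    rw [hd]
    ring
  have e1 := L_left (ρ := ρ) (ψ := ψ) x u' y₁ hy₁0
  have e2 := L_right (ρ := ρ) (ψ := ψ) x u y₁ hy₁0
  have e3 : (ψ (y₁ ⬝ᵥ u) - ψ (y₁ ⬝ᵥ u')) • (L ρ ψ x u * L ρ ψ x u') = 0 := by
    rw [sub_smul, ← smul_mul_assoc, ← e2, ← mul_smul_comm, ← e1, mul_assoc, sub_self]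
  have e4 : ψ (y₁ ⬝ᵥ u) - ψ (y₁ ⬝ᵥ u') ≠ 0 := by
    rw [h1, AddChar.map_add_eq_mul]
    intro h
    have h5 : ψ (y₁ ⬝ᵥ u') * (ψ 1 - 1) = 0 := by linear_combination h
    rcases mul_eq_zero.mp h5 with h6 | h6
    · have := psi_neg_mul (ψ := ψ) (y₁ ⬝ᵥ u')
      rw [h6, mul_zero] at this
      exact zero_ne_one this
    · exact hψ (sub_eq_zero.mp h6)
  exact (smul_eq_zero.mp e3).resolve_left e4

theorem tv_smul_eq (x y : ι → F) (c : F) (h : y ⬝ᵥ (c • x) = 0) (h' : (c • y) ⬝ᵥ x = 0) :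
    tv (c • x) y h = tv x (c • y) h' := by
  apply tv_congr
  ext i j
  simp [vecMulVec_apply]
  ring

/-- Scaling `x` and `u` together does not change `L x u`. -/
theorem L_smul_smul (x u : ι → F) (c : F) (hc : c ≠ 0) :
    L ρ ψ (c • x) (c • u) = L ρ ψ x u := by
  let e : Yp (c • x) ≃ Yp x :=
    { toFun := fun y => ⟨c • y.1, by
        have := y.2
        rw [dotProduct_smul] at this
        rw [smul_dotProduct]
        exact this⟩
      invFun := fun y => ⟨c⁻¹ • y.1, by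
        rw [dotProduct_smul, smul_dotProduct, y.2]
        simp⟩
      left_inv := fun y => by
        apply Subtype.ext
        show c⁻¹ • c • y.1 = y.1
        rw [smul_smul, inv_mul_cancel₀ hc, one_smul]
      right_inv := fun y => by
        apply Subtype.ext
        show c • c⁻¹ • y.1 = y.1
        rw [smul_smul, mul_inv_cancel₀ hc, one_smul] }
  unfold L
  rw [Fintype.card_congr e]
  congr 1
  refine Fintype.sum_equiv e _ _ fun y => ?_
  have hm : tv (c • x) y.1 y.2 = tv x (e y).1 (e y).2 := tv_smul_eq x y.1 c y.2 (e y).2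
  rw [hm]
  congr 1
  show ψ (-(y.1 ⬝ᵥ c • u)) = ψ (-((c • y.1) ⬝ᵥ u))
  rw [dotProduct_smul, smul_dotProduct]

/-- Sum of an additive character. -/
theorem sum_psi_mul (hψ : ψ 1 ≠ 1) (t : F) :
    ∑ α : F, ψ (-(α * t)) = if t = 0 then (Fintype.card F : ℂ) else 0 := by
  classical
  split_ifs with ht
  · subst ht
    simp
  · have h1 : ∑ α : F, ψ (-(α * t)) = ψ (-1) * ∑ α : F, ψ (-(α * t)) := by
      rw [Finset.mul_sum]
      refine Fintype.sum_equiv (Equiv.addRight (-t⁻¹)) _ _ fun α => ?_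
      rw [← AddChar.map_add_eq_mul]
      congr 1
      simp only [Equiv.coe_addRight, add_mul, neg_mul, inv_mul_cancel₀ ht]
      ring
    have h2 : ψ (-1) ≠ 1 := by
      intro h
      apply hψ
      have := psi_neg_mul (ψ := ψ) 1
      rw [h, one_mul] at this
      exact this
    have h3 : (ψ (-1) - 1) * ∑ α : F, ψ (-(α * t)) = 0 := by
      linear_combination -h1
    exact (mul_eq_zero.mp h3).resolve_left (sub_ne_zero.mpr h2)

theorem sum_psi_dot (hψ : ψ 1 ≠ 1) (y : ι → F) :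
    ∑ u : ι → F, ψ (-(y ⬝ᵥ u)) = if y = 0 then ((Fintype.card F : ℂ) ^ Fintype.card ι) else 0 := by
  classical
  split_ifs with hy
  · subst hy
    simp
  · obtain ⟨j, hj⟩ := Function.ne_iff.mp hy
    have h1 : ∑ u : ι → F, ψ (-(y ⬝ᵥ u)) = ψ (-1) * ∑ u : ι → F, ψ (-(y ⬝ᵥ u)) := by
      rw [Finset.mul_sum]
      refine Fintype.sum_equiv (Equiv.addRight (-((y j)⁻¹ • Pi.single j 1))) _ _ fun u => ?_
      rw [← AddChar.map_add_eq_mul]
      congr 1
      simp only [Equiv.coe_addRight, dotProduct_add, dotProduct_neg, dotProduct_smul,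
        dotProduct_single, mul_one, smul_eq_mul]
      rw [inv_mul_cancel₀ hj]
      ring
    have h2 : ψ (-1) ≠ 1 := by
      intro h
      apply hψ
      have := psi_neg_mul (ψ := ψ) 1
      rw [h, one_mul] at this
      exact this
    have h3 : (ψ (-1) - 1) * ∑ u : ι → F, ψ (-(y ⬝ᵥ u)) = 0 := by
      linear_combination -h1
    exact (mul_eq_zero.mp h3).resolve_left (sub_ne_zero.mpr h2)

/-- The size of the kernel of a surjective linear map. -/
theorem card_ker_mul {V W : Type*} [AddCommGroup V] [Module F V] [AddCommGroup W] [Module F W]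
    [Finite V] [Finite W] (T : V →ₗ[F] W) (hT : Function.Surjective T) :
    Nat.card (LinearMap.ker T) * Nat.card W = Nat.card V := by
  rw [Submodule.card_eq_card_quotient_mul_card (LinearMap.ker T)]
  rw [← Nat.card_congr (LinearMap.quotKerEquivOfSurjective T hT).toEquiv, mul_comm]

/-- The number of vectors orthogonal to a nonzero `x`. -/
theorem card_Yp_mul {x : ι → F} (hx : x ≠ 0) :
    Fintype.card (Yp x) * Fintype.card F = Fintype.card F ^ Fintype.card ι := by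
  classical
  let T : (ι → F) →ₗ[F] F :=
    { toFun := fun y => y ⬝ᵥ x
      map_add' := fun y y' => add_dotProduct _ _ _
      map_smul' := fun c y => by simp [smul_dotProduct] }
  obtain ⟨j, hj⟩ := Function.ne_iff.mp hx
  have hT : Function.Surjective T := by
    intro t
    refine ⟨(t * (x j)⁻¹) • Pi.single j 1, ?_⟩
    show ((t * (x j)⁻¹) • Pi.single j 1) ⬝ᵥ x = t
    rw [smul_dotProduct, single_one_dotProduct, smul_eq_mul, mul_assoc, inv_mul_cancel₀ hj, mul_one]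
  have h := card_ker_mul T hT
  simp only [Nat.card_eq_fintype_card, Nat.card_fun] at h
  have e : Fintype.card (LinearMap.ker T) = Fintype.card (Yp x) :=
    Fintype.card_congr (Equiv.subtypeEquivRight (fun y => by
      show y ∈ LinearMap.ker T ↔ y ⬝ᵥ x = 0
      rw [LinearMap.mem_ker]
      rfl))
  rw [e] at h
  rw [h]
  simp

/-- The sum of the weight projections. -/
theorem sum_L (hψ : ψ 1 ≠ 1) {x : ι → F} (hx : x ≠ 0) :
    ∑ u : ι → F, L ρ ψ x u = (Fintype.card F : ℂ) • 1 := by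
  classical
  unfold L
  rw [← Finset.smul_sum, Finset.sum_comm]
  simp only [← Finset.sum_smul, sum_psi_dot hψ]
  rw [Finset.sum_eq_single (⟨0, zero_dotProduct _⟩ : Yp x)]
  · have h1 : tv x (0 : ι → F) (zero_dotProduct x) = 1 := tv_zero_right x _
    simp only [if_true]
    rw [h1, map_one, smul_smul]
    congr 1
    have h2 := card_Yp_mul hx
    have h3 : (Fintype.card (Yp x) : ℂ) * Fintype.card F = (Fintype.card F : ℂ) ^ Fintype.card ι := by
      exact_mod_cast h2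
    rw [← h3]
    field_simp [card_Yp_ne x]
  · intro y _ hy
    have : y.1 ≠ 0 := fun h => hy (Subtype.ext h)
    simp [this]
  · simp

end Cfsg.Agent.Lib.MinDeg.SLn
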