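import Cfsg.Agent.Lib.MinDeg.SLn.Exist
import Cfsg.Agent.Lib.MinDeg.SLn.Absorb
import Cfsg.Prelude.Def_Characters

/-!
# Decomposition of a permutation representation on a `G`-set with a commuting free action

`G` acts on `Ω`, an abelian group `Z` acts freely on `Ω` commuting with `G`; `G` is transitive, and the
stabilizer of a point `x` is transitive on the complement of the orbit `Z x`. Then the permutation
character is `1` plus a sum of distinct irreducible characters indexed by the characters of `Z`.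
-/

set_option autoImplicit false
set_option linter.unusedSectionVars false
set_option linter.unusedSimpArgs false
set_option linter.unusedVariables false

namespace Cfsg.Agent.Lib.MinDeg.SLn

/-- An equivariant idempotent with irreducible image gives an irreducible character. -/
theorem exists_irred_char {G W : Type*} [Group G] [AddCommGroup W] [Module ℂ W] [FiniteDimensional ℂ W]
    (ρ : G →* Module.End ℂ W) (π : Module.End ℂ W) (hπ : π * π = π)
    (hc : ∀ g, ρ g * π = π * ρ g)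
    (hirr : ∀ K : Submodule ℂ W, K ≤ LinearMap.range π → K ≠ ⊥ → (∀ g, ∀ f ∈ K, ρ g f ∈ K) →
      K = LinearMap.range π)
    {d : ℕ} (hd : Module.finrank ℂ (LinearMap.range π) = d) (hd0 : 0 < d) :
    ∃ ρ' : Representation ℂ G (Fin d → ℂ), ρ'.IsIrreducible ∧
      ∀ g, ρ'.character g = LinearMap.trace ℂ W (ρ g * π) := by
  set U := LinearMap.range π with hUdef
  have hπU : ∀ u ∈ U, π u = u := by
    rintro _ ⟨z, rfl⟩
    show π (π z) = π z
    rw [← Module.End.mul_apply, hπ]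
  have hU : ∀ g, ∀ f ∈ U, ρ g f ∈ U := by
    intro g f hf
    rw [← hπU f hf, ← Module.End.mul_apply, hc, Module.End.mul_apply]
    exact ⟨_, rfl⟩
  let e : U ≃ₗ[ℂ] (Fin d → ℂ) := LinearEquiv.ofFinrankEq _ _ (by simp [hd])
  let ρ' : Representation ℂ G (Fin d → ℂ) :=
    { toFun := fun g => e.toLinearMap ∘ₗ (LinearMap.restrict (ρ g) (hU g)) ∘ₗ e.symm.toLinearMap
      map_one' := by
        apply LinearMap.ext
        intro v
        have h1 : (LinearMap.restrict (ρ 1) (hU 1)) (e.symm v) = e.symm v := by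
          apply Subtype.ext
          simp
        simp only [LinearMap.coe_comp, LinearEquiv.coe_coe, Function.comp_apply, h1]
        simp
      map_mul' := by
        intro g g'
        apply LinearMap.ext
        intro v
        have h1 : (LinearMap.restrict (ρ (g * g')) (hU (g * g'))) (e.symm v) =
            (LinearMap.restrict (ρ g) (hU g))
              ((LinearMap.restrict (ρ g') (hU g')) (e.symm v)) := by
          apply Subtype.ext
          simp
        simp only [LinearMap.coe_comp, LinearEquiv.coe_coe, Function.comp_apply, h1, Module.End.mul_apply,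
          LinearEquiv.symm_apply_apply] }
  have hρ : ∀ g (u : U), ρ' g (e u) = e ((LinearMap.restrict (ρ g) (hU g)) u) := by
    intro g u
    show e ((LinearMap.restrict (ρ g) (hU g)) (e.symm (e u))) = _
    rw [LinearEquiv.symm_apply_apply]
  have : Nonempty (Fin d) := Fin.pos_iff_nonempty.mp hd0
  refine ⟨ρ', Cfsg.Agent.Lib.MinDeg.Weil.Odd.isIrreducible_of ρ' fun K hK => ?_, ?_⟩
  · by_cases hK0 : K = ⊥
    · exact Or.inl hK0
    right
    let K' : Submodule ℂ W := Submodule.map U.subtype (Submodule.comap e.toLinearMap K)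
    have hK'U : K' ≤ U := Submodule.map_subtype_le _ _
    have hK'0 : K' ≠ ⊥ := by
      obtain ⟨v, hv, hv0⟩ := Submodule.exists_mem_ne_zero_of_ne_bot hK0
      intro h
      have h1 : ((e.symm v : U) : W) ∈ K' := by
        refine Submodule.mem_map.mpr ⟨e.symm v, ?_, rfl⟩
        show e (e.symm v) ∈ K
        rw [LinearEquiv.apply_symm_apply]
        exact hv
      rw [h, Submodule.mem_bot] at h1
      apply hv0
      have h2 : e.symm v = 0 := Subtype.ext h1
      rw [← e.apply_symm_apply v, h2, map_zero]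
    have hinv : ∀ g, ∀ f ∈ K', ρ g f ∈ K' := by
      rintro g _ ⟨u, hu, rfl⟩
      refine Submodule.mem_map.mpr ⟨(LinearMap.restrict (ρ g) (hU g)) u, ?_, rfl⟩
      show e _ ∈ K
      rw [← hρ]
      exact hK g _ hu
    have h1 := hirr K' hK'U hK'0 hinv
    rw [eq_top_iff]
    intro v _
    have h2 : ((e.symm v : U) : W) ∈ K' := by
      rw [h1]
      exact (e.symm v).2
    obtain ⟨u, hu, hu'⟩ := Submodule.mem_map.mp h2
    have h3 : u = e.symm v := Subtype.ext hu'
    have h4 : e u ∈ K := hu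
    rw [h3, LinearEquiv.apply_symm_apply] at h4
    exact h4
  · intro g
    have hf : ∀ x, (ρ g * π) x ∈ U := by
      intro x
      rw [Module.End.mul_apply]
      exact hU g _ ⟨x, rfl⟩
    have h1 := LinearMap.trace_restrict_eq_of_forall_mem (R := ℂ) (M := W) U (ρ g * π) hf
    rw [← h1]
    have h2 : (LinearMap.restrict (ρ g * π) fun x _ => hf x) = LinearMap.restrict (ρ g) (hU g) := by
      apply LinearMap.ext
      intro u
      apply Subtype.ext
      show ρ g (π u.1) = ρ g u.1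
      rw [hπU _ u.2]
    rw [h2]
    show LinearMap.trace ℂ _ (e.toLinearMap ∘ₗ (LinearMap.restrict (ρ g) (hU g)) ∘ₗ e.symm.toLinearMap) = _
    have h3 := LinearMap.trace_conj' (LinearMap.restrict (ρ g) (hU g)) e
    exact h3

section abs

variable {G Z Ω : Type*} [Group G] [Finite G] [CommGroup Z] [Fintype Z] [MulAction G Ω] [MulAction Z Ω]
  [SMulCommClass G Z Ω] [Fintype Ω] [DecidableEq Ω]

/-- The value of a character of `Z`. -/
abbrev th (θ : Z →* ℂˣ) (γ : Z) : ℂ := ((θ γ : ℂˣ) : ℂ)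

theorem th_mul (θ : Z →* ℂˣ) (γ τ : Z) : th θ (γ * τ) = th θ γ * th θ τ := by
  simp [th]

theorem th_ne_zero (θ : Z →* ℂˣ) (γ : Z) : th θ γ ≠ 0 := Units.ne_zero _

theorem th_one (θ : Z →* ℂˣ) : th θ 1 = 1 := by simp [th]

theorem th_one_left (γ : Z) : th (1 : Z →* ℂˣ) γ = 1 := by simp [th]

variable (Ω) in
/-- The projection to the constants. -/
noncomputable def cOp : Module.End ℂ (Ω → ℂ) where
  toFun f := fun _ => (Fintype.card Ω : ℂ)⁻¹ * ∑ z, f z
  map_add' f f' := by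
    funext x
    simp [Finset.sum_add_distrib, mul_add]
  map_smul' c f := by
    funext x
    simp [Finset.mul_sum, mul_left_comm]

theorem cOp_apply (f : Ω → ℂ) (x : Ω) : cOp Ω f x = (Fintype.card Ω : ℂ)⁻¹ * ∑ z, f z := rfl

variable (Ω) in
/-- The projection to the `θ`-eigenspace of `Z`. -/
noncomputable def pOp (θ : Z →* ℂˣ) : Module.End ℂ (Ω → ℂ) where
  toFun f := fun x => (Fintype.card Z : ℂ)⁻¹ * ∑ γ : Z, (th θ γ)⁻¹ * f (γ • x)
  map_add' f f' := by
    funext x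
    simp [Finset.sum_add_distrib, mul_add]
  map_smul' c f := by
    funext x
    simp [Finset.mul_sum, mul_left_comm]

theorem pOp_apply (θ : Z →* ℂˣ) (f : Ω → ℂ) (x : Ω) :
    pOp Ω θ f x = (Fintype.card Z : ℂ)⁻¹ * ∑ γ : Z, (th θ γ)⁻¹ * f (γ • x) := rfl

open _root_.Classical in
variable (Ω) in
/-- The idempotent for `θ`. -/
noncomputable def piOp (θ : Z →* ℂˣ) : Module.End ℂ (Ω → ℂ) :=
  pOp Ω θ - if θ = 1 then cOp Ω else 0

variable (Ω) in
/-- The irreducible module for `θ`. -/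
def UU (θ : Z →* ℂˣ) : Submodule ℂ (Ω → ℂ) where
  carrier := {f | (∀ γ x, f (γ • x) = th θ γ * f x) ∧ (θ = 1 → ∑ z, f z = 0)}
  add_mem' := by
    rintro f f' ⟨h1, h2⟩ ⟨h1', h2'⟩
    refine ⟨fun γ x => ?_, fun h => ?_⟩
    · simp only [Pi.add_apply, h1, h1', mul_add]
    · simp only [Pi.add_apply, Finset.sum_add_distrib, h2 h, h2' h, add_zero]
  zero_mem' := by
    refine ⟨fun γ x => ?_, fun h => ?_⟩
    · simp
    · simp
  smul_mem' := by
    rintro c f ⟨h1, h2⟩
    refine ⟨fun γ x => ?_, fun h => ?_⟩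
    · simp only [Pi.smul_apply, h1, smul_eq_mul]
      ring
    · simp only [Pi.smul_apply, smul_eq_mul, ← Finset.mul_sum, h2 h, mul_zero]

theorem mem_UU {θ : Z →* ℂˣ} {f : Ω → ℂ} :
    f ∈ UU Ω θ ↔ (∀ γ x, f (γ • x) = th θ γ * f x) ∧ (θ = 1 → ∑ z, f z = 0) := Iff.rfl

theorem card_Z_ne : (Fintype.card Z : ℂ) ≠ 0 := Nat.cast_ne_zero.mpr Fintype.card_ne_zero

theorem pOp_eigen (θ : Z →* ℂˣ) (f : Ω → ℂ) (τ : Z) (x : Ω) :
    pOp Ω θ f (τ • x) = th θ τ * pOp Ω θ f x := by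
  rw [pOp_apply, pOp_apply, mul_left_comm (th θ τ), Finset.mul_sum Finset.univ _ (th θ τ)]
  congr 1
  refine Fintype.sum_equiv (Equiv.mulRight τ) _ _ fun γ => ?_
  rw [Equiv.coe_mulRight, th_mul, mul_smul]
  have h1 := th_ne_zero θ τ
  have h2 := th_ne_zero θ γ
  field_simp

theorem pOp_sum (θ : Z →* ℂˣ) (f : Ω → ℂ) (h1 : θ = 1) : ∑ x, pOp Ω θ f x = ∑ x, f x := by
  subst h1
  simp only [pOp_apply, ← Finset.mul_sum]
  rw [Finset.sum_comm]
  have e : ∀ γ : Z, ∑ x, (th (1 : Z →* ℂˣ) γ)⁻¹ * f (γ • x) = ∑ x, f x := by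
    intro γ
    simp only [th, MonoidHom.one_apply, Units.val_one, inv_one, one_mul]
    exact Fintype.sum_equiv (MulAction.toPerm γ) _ _ fun x => rfl
  simp only [e, Finset.sum_const, Finset.card_univ, nsmul_eq_mul]
  rw [← mul_assoc, inv_mul_cancel₀ card_Z_ne, one_mul]

theorem cOp_sum [Nonempty Ω] (f : Ω → ℂ) : ∑ x, cOp Ω f x = ∑ x, f x := by
  simp only [cOp_apply, Finset.sum_const, Finset.card_univ, nsmul_eq_mul]
  rw [← mul_assoc, mul_inv_cancel₀ (Nat.cast_ne_zero.mpr Fintype.card_ne_zero), one_mul]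

theorem piOp_mem [Nonempty Ω] (θ : Z →* ℂˣ) (f : Ω → ℂ) : piOp Ω θ f ∈ UU Ω θ := by
  classical
  refine ⟨fun γ x => ?_, fun h => ?_⟩
  · by_cases h1 : θ = 1
    · subst h1
      simp only [piOp, if_true, LinearMap.sub_apply, Pi.sub_apply]
      rw [pOp_eigen]
      simp [th, cOp_apply]
    · simp only [piOp, if_neg h1, LinearMap.sub_apply, Pi.sub_apply, LinearMap.zero_apply, Pi.zero_apply, sub_zero]
      rw [pOp_eigen]
  · subst h
    simp only [piOp, if_true, LinearMap.sub_apply, Pi.sub_apply, Finset.sum_sub_distrib]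
    rw [pOp_sum _ _ rfl, cOp_sum, sub_self]

theorem piOp_of_mem {θ : Z →* ℂˣ} {f : Ω → ℂ} (hf : f ∈ UU Ω θ) : piOp Ω θ f = f := by
  classical
  have h1 : pOp Ω θ f = f := by
    funext x
    rw [pOp_apply]
    have e : ∀ γ : Z, (th θ γ)⁻¹ * f (γ • x) = f x := by
      intro γ
      rw [hf.1, ← mul_assoc, inv_mul_cancel₀ (th_ne_zero θ γ), one_mul]
    simp only [e, Finset.sum_const, Finset.card_univ, nsmul_eq_mul]
    rw [← mul_assoc, inv_mul_cancel₀ card_Z_ne, one_mul]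
  by_cases h : θ = 1
  · simp only [piOp, if_pos h, LinearMap.sub_apply, h1]
    funext x
    simp [cOp_apply, hf.2 h]
  · simp only [piOp, if_neg h, LinearMap.sub_apply, h1]
    simp

theorem piOp_idem [Nonempty Ω] (θ : Z →* ℂˣ) : piOp Ω θ * piOp Ω θ = piOp Ω θ := by
  apply LinearMap.ext
  intro f
  rw [Module.End.mul_apply, piOp_of_mem (piOp_mem θ f)]

theorem range_piOp [Nonempty Ω] (θ : Z →* ℂˣ) : LinearMap.range (piOp Ω θ) = UU Ω θ := by
  apply le_antisymm
  · rintro _ ⟨f, rfl⟩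
    exact piOp_mem θ f
  · intro f hf
    exact ⟨f, piOp_of_mem hf⟩

theorem permMon_cOp (g : G) : permMon G Ω g * cOp Ω = cOp Ω := by
  apply LinearMap.ext
  intro f
  funext x
  rfl

theorem cOp_permMon (g : G) : cOp Ω * permMon G Ω g = cOp Ω := by
  apply LinearMap.ext
  intro f
  funext x
  rw [Module.End.mul_apply, cOp_apply, cOp_apply]
  congr 1
  exact Fintype.sum_equiv (MulAction.toPerm g⁻¹) _ _ fun z => rfl

theorem comm_pOp (θ : Z →* ℂˣ) (g : G) : permMon G Ω g * pOp Ω θ = pOp Ω θ * permMon G Ω g := by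
  apply LinearMap.ext
  intro f
  funext x
  rw [Module.End.mul_apply, Module.End.mul_apply, permMon_apply, pOp_apply, pOp_apply]
  congr 1
  refine Finset.sum_congr rfl fun γ _ => ?_
  rw [permMon_apply, smul_comm g⁻¹ γ x]

theorem comm_piOp (θ : Z →* ℂˣ) (g : G) : permMon G Ω g * piOp Ω θ = piOp Ω θ * permMon G Ω g := by
  classical
  unfold piOp
  rw [mul_sub, sub_mul, comm_pOp]
  congr 1
  split_ifs
  · rw [permMon_cOp, cOp_permMon]
  · simp

/-- The trace on a function space. -/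
theorem trace_fun (T : Module.End ℂ (Ω → ℂ)) :
    LinearMap.trace ℂ (Ω → ℂ) T = ∑ x, T (Pi.single x 1) x := by
  rw [LinearMap.trace_eq_matrix_trace ℂ (Pi.basisFun ℂ Ω), Matrix.trace]
  refine Finset.sum_congr rfl fun x _ => ?_
  simp [LinearMap.toMatrix_apply]

theorem trace_cOp [Nonempty Ω] : LinearMap.trace ℂ (Ω → ℂ) (cOp Ω) = 1 := by
  rw [trace_fun]
  simp only [cOp_apply, Finset.sum_pi_single', Finset.mem_univ, if_true, Finset.sum_const,
    Finset.card_univ, nsmul_eq_mul, mul_one]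
  simp [Finset.sum_pi_single']

theorem trace_permMon (g : G) : LinearMap.trace ℂ (Ω → ℂ) (permMon G Ω g) =
    ((Finset.univ.filter (fun x : Ω => g • x = x)).card : ℂ) := by
  rw [trace_fun, Finset.card_filter]
  push_cast
  refine Finset.sum_congr rfl fun x _ => ?_
  rw [permMon_apply]
  by_cases h : g • x = x
  · have : g⁻¹ • x = x := by
      conv_lhs => rw [← h]
      rw [inv_smul_smul]
    simp [h, this]
  · have : g⁻¹ • x ≠ x := by
      intro h2
      apply h
      conv_lhs => rw [← h2]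
      rw [smul_inv_smul]
    simp [h, Pi.single_eq_of_ne this]

section chars

variable (Z) in
theorem finite_dual : Finite (Z →* ℂˣ) := by
  have : NeZero (Monoid.exponent Z) := ⟨Monoid.exponent_ne_zero_of_finite⟩
  have h := CommGroup.card_monoidHom_of_hasEnoughRootsOfUnity Z ℂ
  apply Nat.finite_of_card_ne_zero
  rw [h, Nat.card_eq_fintype_card]
  exact Fintype.card_ne_zero

theorem card_dual : Nat.card (Z →* ℂˣ) = Fintype.card Z := by
  have : NeZero (Monoid.exponent Z) := ⟨Monoid.exponent_ne_zero_of_finite⟩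
  rw [CommGroup.card_monoidHom_of_hasEnoughRootsOfUnity Z ℂ, Nat.card_eq_fintype_card]

theorem exists_th_ne {γ : Z} (hγ : γ ≠ 1) : ∃ θ : Z →* ℂˣ, th θ γ ≠ 1 := by
  have : NeZero (Monoid.exponent Z) := ⟨Monoid.exponent_ne_zero_of_finite⟩
  obtain ⟨θ, hθ⟩ := CommGroup.exists_apply_ne_one_of_hasEnoughRootsOfUnity Z ℂ hγ
  exact ⟨θ, fun h => hθ (Units.ext h)⟩

open _root_.Classical in
theorem sum_th_inv [Fintype (Z →* ℂˣ)] (γ : Z) :
    ∑ θ : Z →* ℂˣ, (th θ γ)⁻¹ = if γ = 1 then (Fintype.card Z : ℂ) else 0 := by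
  split_ifs with h
  · subst h
    simp only [th_one, inv_one, Finset.sum_const, Finset.card_univ, nsmul_eq_mul, mul_one]
    rw [← Nat.card_eq_fintype_card, card_dual]
  · obtain ⟨θ₀, h0⟩ := exists_th_ne h
    have e : ∑ θ : Z →* ℂˣ, (th θ γ)⁻¹ = (th θ₀ γ)⁻¹ * ∑ θ : Z →* ℂˣ, (th θ γ)⁻¹ := by
      rw [Finset.mul_sum]
      refine Fintype.sum_equiv (Equiv.mulLeft θ₀⁻¹) _ _ fun θ => ?_
      simp only [Equiv.coe_mulLeft, th, MonoidHom.mul_apply, MonoidHom.inv_apply, Units.val_mul,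
        Units.val_inv_eq_inv_val, mul_inv, inv_inv]
      have := th_ne_zero θ₀ γ
      field_simp
    have hne : (th θ₀ γ)⁻¹ ≠ 1 := by
      intro h1
      apply h0
      rw [inv_eq_one] at h1
      exact h1
    have e2 : ((th θ₀ γ)⁻¹ - 1) * ∑ θ : Z →* ℂˣ, (th θ γ)⁻¹ = 0 := by
      linear_combination -e
    exact (mul_eq_zero.mp e2).resolve_left (sub_ne_zero.mpr hne)

/-- Decomposition of the identity. -/
theorem sum_piOp [Fintype (Z →* ℂˣ)] :
    ∑ θ : Z →* ℂˣ, piOp Ω θ + cOp Ω = 1 := by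
  classical
  unfold piOp
  rw [Finset.sum_sub_distrib, Finset.sum_ite_eq' Finset.univ (1 : Z →* ℂˣ)]
  simp only [Finset.mem_univ, if_true, sub_add_cancel]
  apply LinearMap.ext
  intro f
  funext x
  rw [LinearMap.sum_apply, Finset.sum_apply]
  simp only [pOp_apply, ← Finset.mul_sum]
  rw [Finset.sum_comm]
  simp only [← Finset.sum_mul, sum_th_inv]
  rw [Finset.sum_eq_single (1 : Z)]
  · simp only [if_true, one_smul]
    rw [← mul_assoc, inv_mul_cancel₀ card_Z_ne, one_mul]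
    rfl
  · intro γ _ hγ
    simp [hγ]
  · simp

end chars

/-- The hypotheses on the actions. -/
structure GoodAct (G Z Ω : Type*) [Group G] [CommGroup Z] [MulAction G Ω] [MulAction Z Ω] : Prop where
  trans : ∀ x y : Ω, ∃ g : G, g • x = y
  free : ∀ (γ : Z) (x : Ω), γ • x = x → γ = 1
  two : ∀ x y y' : Ω, (∀ γ : Z, y ≠ γ • x) → (∀ γ : Z, y' ≠ γ • x) → ∃ g : G, g • x = x ∧ g • y = y'
  exi : ∃ x y : Ω, ∀ γ : Z, y ≠ γ • x

section main

variable (h : GoodAct G Z Ω)
include h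

theorem GoodAct.nonempty : Nonempty Ω := by
  obtain ⟨x, _, _⟩ := h.exi
  exact ⟨x⟩

theorem GoodAct.exists_not (x : Ω) : ∃ y : Ω, ∀ γ : Z, y ≠ γ • x := by
  obtain ⟨x', y', hy'⟩ := h.exi
  obtain ⟨g, hg⟩ := h.trans x' x
  refine ⟨g • y', fun γ hc => ?_⟩
  apply hy' γ
  have : g • y' = g • (γ • x') := by
    rw [hc, smul_comm, hg]
  exact smul_left_cancel g this

/-- The invariants of a stabilizer. -/
theorem GoodAct.const_of_stab {x₀ : Ω} {w : Ω → ℂ}
    (hw : ∀ s ∈ MulAction.stabilizer G x₀, ∀ x, w (s⁻¹ • x) = w x) {y y' : Ω}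
    (hy : ∀ γ : Z, y ≠ γ • x₀) (hy' : ∀ γ : Z, y' ≠ γ • x₀) : w y = w y' := by
  obtain ⟨k, hk1, hk2⟩ := h.two x₀ y y' hy hy'
  have := hw k (MulAction.mem_stabilizer_iff.mpr hk1) y'
  rw [← hk2, inv_smul_smul] at this
  rw [this, hk2]

/-- Invariant vectors of the stabilizer in `U θ` vanish off the orbit, for `θ ≠ 1`. -/
theorem GoodAct.vanish_of_ne {θ : Z →* ℂˣ} (hθ : θ ≠ 1) {x₀ : Ω} {w : Ω → ℂ} (hwU : w ∈ UU Ω θ)
    (hw : ∀ s ∈ MulAction.stabilizer G x₀, ∀ x, w (s⁻¹ • x) = w x) {y : Ω}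
    (hy : ∀ γ : Z, y ≠ γ • x₀) : w y = 0 := by
  obtain ⟨τ, hτ⟩ : ∃ τ, th θ τ ≠ 1 := by
    by_contra hc
    push Not at hc
    apply hθ
    ext γ
    show th θ γ = _
    rw [hc γ]
    simp
  have hy2 : ∀ γ : Z, τ • y ≠ γ • x₀ := by
    intro γ hc
    apply hy (τ⁻¹ * γ)
    rw [mul_smul, ← hc, inv_smul_smul]
  have e1 := h.const_of_stab hw hy2 hy
  rw [hwU.1] at e1
  have e2 : (th θ τ - 1) * w y = 0 := by linear_combination e1
  exact (mul_eq_zero.mp e2).resolve_left (sub_ne_zero.mpr hτ)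

/-- The sum over an orbit. -/
theorem GoodAct.sum_of_off_orbit (z : Ω) (u : Ω → ℂ) (hu : ∀ x, (∀ γ : Z, z ≠ γ • x) → u x = 0) :
    ∑ x, u x = ∑ γ : Z, u (γ⁻¹ • z) := by
  classical
  symm
  refine Finset.sum_of_injOn (fun γ : Z => γ⁻¹ • z) ?_ (fun _ _ => Finset.mem_coe.mpr (Finset.mem_univ _))
    ?_ (fun _ _ => rfl)
  · intro γ _ τ _ hc
    simp only at hc
    have h1 := h.free (τ * γ⁻¹) z (by rw [mul_smul, hc, smul_inv_smul])
    have h2 : τ = γ := by
      rw [mul_inv_eq_one] at h1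
      exact h1
    exact h2.symm
  · intro x _ hx
    apply hu
    rintro γ rfl
    apply hx
    exact ⟨γ, Finset.mem_coe.mpr (Finset.mem_univ _), inv_smul_smul γ x⟩

/-- Irreducibility. -/
theorem GoodAct.UU_irred (θ : Z →* ℂˣ) (K : Submodule ℂ (Ω → ℂ)) (hKU : K ≤ UU Ω θ) (hK0 : K ≠ ⊥)
    (hK : ∀ g, ∀ f ∈ K, permMon G Ω g f ∈ K) : K = UU Ω θ := by
  classical
  obtain ⟨f, hf, hf0⟩ := Submodule.exists_mem_ne_zero_of_ne_bot hK0
  obtain ⟨x₀, hx₀⟩ := Function.ne_iff.mp hf0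
  let _ : Fintype (MulAction.stabilizer G x₀) := Fintype.ofFinite _
  set w : Ω → ℂ := ∑ g : MulAction.stabilizer G x₀, permMon G Ω g.1 f with hwdef
  have hwK : w ∈ K := Submodule.sum_mem _ fun g _ => hK _ _ hf
  have hwU := hKU hwK
  have hval : ∀ p, w p = ∑ g : MulAction.stabilizer G x₀, f (g.1⁻¹ • p) := by
    intro p
    rw [hwdef, Finset.sum_apply]
    rfl
  have hα : w x₀ ≠ 0 := by
    rw [hval]
    have : ∀ g : MulAction.stabilizer G x₀, f (g.1⁻¹ • x₀) = f x₀ := by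
      intro g
      congr 1
      exact MulAction.mem_stabilizer_iff.mp (inv_mem g.2)
    simp only [this, Finset.sum_const, Finset.card_univ, nsmul_eq_mul]
    exact mul_ne_zero (Nat.cast_ne_zero.mpr Fintype.card_ne_zero) hx₀
  have hinv : ∀ k ∈ MulAction.stabilizer G x₀, ∀ p, w (k⁻¹ • p) = w p := by
    intro k hk p
    rw [hval, hval]
    refine Fintype.sum_equiv (Equiv.mulLeft (⟨k, hk⟩ : MulAction.stabilizer G x₀)) _ _ fun g => ?_
    simp [mul_smul]
  apply le_antisymm hKU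
  intro F hF
  -- translates of `w`
  choose gg hgg using fun x => h.trans x₀ x
  set W : Ω → Ω → ℂ := fun x => permMon G Ω (gg x) w with hW
  have hWK : ∀ x, W x ∈ K := fun x => hK _ _ hwK
  have hW1 : ∀ (x z : Ω), W x z = w ((gg x)⁻¹ • z) := fun x z => rfl
  have hgi : ∀ x, (gg x)⁻¹ • x = x₀ := by
    intro x
    exact inv_smul_eq_iff.mpr (hgg x).symm
  have hWon : ∀ (x : Ω) (γ : Z), W x (γ • x) = th θ γ * w x₀ := by
    intro x γ
    rw [hW1, smul_comm, hgi, hwU.1]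
  have hNot : ∀ x z : Ω, (∀ γ : Z, z ≠ γ • x) → ∀ γ : Z, (gg x)⁻¹ • z ≠ γ • x₀ := by
    intro x z hz γ hc
    apply hz γ
    have : z = gg x • (γ • x₀) := by rw [← hc, smul_inv_smul]
    rw [this, smul_comm, hgg]
  have hHF : F ∈ UU Ω θ := hF
  -- the general expansion
  have hexp : ∀ β : ℂ, (∀ y : Ω, (∀ γ : Z, y ≠ γ • x₀) → w y = β) → β * ∑ z, F z = 0 →
      ∑ x, F x • W x = (∑ γ : Z, (th θ γ)⁻¹ * (th θ γ * w x₀ - β)) • F := by
    intro β hβ hβF
    funext z
    rw [Finset.sum_apply, Pi.smul_apply, smul_eq_mul]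
    simp only [Pi.smul_apply, smul_eq_mul]
    have e1 : ∑ x, F x * W x z = ∑ x, F x * (W x z - β) := by
      have : ∑ x, F x * (W x z - β) = ∑ x, F x * W x z - β * ∑ x, F x := by
        rw [Finset.mul_sum, ← Finset.sum_sub_distrib]
        exact Finset.sum_congr rfl fun x _ => by ring
      rw [this, hβF, sub_zero]
    rw [e1, h.sum_of_off_orbit z (fun x => F x * (W x z - β))]
    · rw [Finset.sum_mul]
      refine Finset.sum_congr rfl fun γ _ => ?_
      have e2 : W (γ⁻¹ • z) z = th θ γ * w x₀ := by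
        have := hWon (γ⁻¹ • z) γ
        rwa [smul_inv_smul] at this
      have e3 : F (γ⁻¹ • z) = (th θ γ)⁻¹ * F z := by
        have := hHF.1 γ (γ⁻¹ • z)
        rw [smul_inv_smul] at this
        rw [this, ← mul_assoc, inv_mul_cancel₀ (th_ne_zero θ γ), one_mul]
      rw [e2, e3]
      ring
    · intro x hx
      show F x * (W x z - β) = 0
      rw [hW1, hβ _ (hNot x z hx), sub_self, mul_zero]
  have hcons : ∀ κ : ℂ, κ ≠ 0 → ∑ x, F x • W x = κ • F → F ∈ K := by
    intro κ hκ e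
    have hmem : κ • F ∈ K := by
      rw [← e]
      exact Submodule.sum_mem _ fun x _ => Submodule.smul_mem _ _ (hWK x)
    exact (Submodule.smul_mem_iff _ hκ).mp hmem
  by_cases hθ : θ = 1
  · subst hθ
    obtain ⟨y₀, hy₀⟩ := h.exists_not x₀
    set β := w y₀ with hβdef
    set α := w x₀ with hαdef
    have hβ : ∀ y : Ω, (∀ γ : Z, y ≠ γ • x₀) → w y = β := fun y hy =>
      h.const_of_stab hinv hy hy₀
    have hsum : ∑ z, w z = 0 := hwU.2 rfl
    have h1 : ∑ z, (w z - β) = (Fintype.card Z : ℂ) * (α - β) := by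
      rw [h.sum_of_off_orbit x₀ (fun z => w z - β)]
      · have : ∀ γ : Z, w (γ⁻¹ • x₀) - β = α - β := by
          intro γ
          rw [hwU.1, th_one_left, one_mul]
        simp only [this, Finset.sum_const, Finset.card_univ, nsmul_eq_mul]
      · intro x hx
        show w x - β = 0
        rw [hβ x (fun γ hc => hx γ⁻¹ (by rw [hc, inv_smul_smul])), sub_self]
    have hΩ0 : (Fintype.card Ω : ℂ) ≠ 0 := by
      have : Nonempty Ω := h.nonempty
      exact Nat.cast_ne_zero.mpr Fintype.card_ne_zero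
    have h2 : (Fintype.card Z : ℂ) * (α - β) = - ((Fintype.card Ω : ℂ) * β) := by
      rw [← h1, Finset.sum_sub_distrib, hsum]
      simp
    have hne : α - β ≠ 0 := by
      intro h0
      have h3 : (Fintype.card Ω : ℂ) * β = 0 := by
        rw [h0, mul_zero] at h2
        linear_combination h2
      have hβ0 : β = 0 := (mul_eq_zero.mp h3).resolve_left hΩ0
      apply hα
      rw [sub_eq_zero.mp h0, hβ0]
    have hexp' := hexp β hβ (by rw [hHF.2 rfl, mul_zero])
    refine hcons _ ?_ hexp'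
    have : ∀ γ : Z, (th (1 : Z →* ℂˣ) γ)⁻¹ * (th (1 : Z →* ℂˣ) γ * α - β) = α - β := by
      intro γ
      rw [th_one_left, inv_one, one_mul, one_mul]
    simp only [this, Finset.sum_const, Finset.card_univ, nsmul_eq_mul]
    exact mul_ne_zero card_Z_ne hne
  · have hβ : ∀ y : Ω, (∀ γ : Z, y ≠ γ • x₀) → w y = 0 := fun y hy =>
      h.vanish_of_ne hθ hwU hinv hy
    have hexp' := hexp 0 hβ (zero_mul _)
    refine hcons _ ?_ hexp'
    have : ∀ γ : Z, (th θ γ)⁻¹ * (th θ γ * w x₀ - 0) = w x₀ := by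
      intro γ
      rw [sub_zero, ← mul_assoc, inv_mul_cancel₀ (th_ne_zero θ γ), one_mul]
    simp only [this, Finset.sum_const, Finset.card_univ, nsmul_eq_mul]
    exact mul_ne_zero card_Z_ne hα

variable (Ω) in
/-- The character attached to `θ`. -/
noncomputable def chi (θ : Z →* ℂˣ) (g : G) : ℂ :=
  LinearMap.trace ℂ (Ω → ℂ) (permMon G Ω g * piOp Ω θ)

theorem GoodAct.trace_eq_sum [Fintype (Z →* ℂˣ)] (g : G) :
    LinearMap.trace ℂ (Ω → ℂ) (permMon G Ω g) = 1 + ∑ θ : Z →* ℂˣ, chi Ω θ g := by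
  have : Nonempty Ω := h.nonempty
  have e : permMon G Ω g = ∑ θ : Z →* ℂˣ, permMon G Ω g * piOp Ω θ + cOp Ω := by
    conv_lhs => rw [← mul_one (permMon G Ω g), ← sum_piOp (Ω := Ω) (Z := Z)]
    rw [mul_add, permMon_cOp, Finset.mul_sum]
  rw [e, map_add, map_sum, trace_cOp, add_comm]
  rfl

theorem GoodAct.card_lt [Nonempty Z] : Fintype.card Z < Fintype.card Ω := by
  classical
  obtain ⟨x, y, hy⟩ := h.exi
  apply Fintype.card_lt_of_injective_of_notMem (fun γ : Z => γ • x) (b := y)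
  · intro γ τ hc
    simp only at hc
    have h1 := h.free (τ⁻¹ * γ) x (by rw [mul_smul, hc, inv_smul_smul])
    have h2 : γ = τ := by
      rw [inv_mul_eq_one] at h1
      exact h1.symm
    exact h2
  · rintro ⟨γ, rfl⟩
    exact hy γ rfl

/-- A vector of `U θ` not vanishing at `x₀`. -/
theorem GoodAct.exists_mem_ne (θ : Z →* ℂˣ) (x₀ : Ω) : ∃ f ∈ UU Ω θ, f x₀ ≠ 0 := by
  classical
  have : Nonempty Ω := h.nonempty
  refine ⟨piOp Ω θ (Pi.single x₀ 1), piOp_mem θ _, ?_⟩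
  have h1 : pOp Ω θ (Pi.single x₀ 1) x₀ = (Fintype.card Z : ℂ)⁻¹ := by
    rw [pOp_apply, Finset.sum_eq_single (1 : Z)]
    · simp [th_one]
    · intro γ _ hγ
      have : γ • x₀ ≠ x₀ := fun hc => hγ (h.free γ x₀ hc)
      simp [Pi.single_eq_of_ne this]
    · simp
  by_cases hθ : θ = 1
  · simp only [piOp, if_pos hθ, LinearMap.sub_apply, Pi.sub_apply, h1, cOp_apply]
    simp only [Finset.sum_pi_single', Finset.mem_univ, if_true, mul_one]
    rw [sub_ne_zero]
    intro hc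
    have h2 : (Fintype.card Z : ℂ) = Fintype.card Ω := inv_injective hc
    have h3 : Fintype.card Z = Fintype.card Ω := by exact_mod_cast h2
    have := h.card_lt
    omega
  · simp only [piOp, if_neg hθ, LinearMap.sub_apply, Pi.sub_apply, h1, LinearMap.zero_apply,
      Pi.zero_apply, sub_zero]
    exact inv_ne_zero card_Z_ne

/-- The averaging operator over a stabilizer. -/
noncomputable def eOp [Fintype Ω] (x₀ : Ω) [Fintype (MulAction.stabilizer G x₀)] : Module.End ℂ (Ω → ℂ) :=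
  (Fintype.card (MulAction.stabilizer G x₀) : ℂ)⁻¹ •
    ∑ s : MulAction.stabilizer G x₀, permMon G Ω s.1

section tester

variable (x₀ : Ω) [Fintype (MulAction.stabilizer G x₀)]

omit h in
theorem card_S_ne : (Fintype.card (MulAction.stabilizer G x₀) : ℂ) ≠ 0 :=
  Nat.cast_ne_zero.mpr Fintype.card_ne_zero

omit h in
theorem eOp_apply (f : Ω → ℂ) (p : Ω) : eOp (G := G) x₀ f p =
    (Fintype.card (MulAction.stabilizer G x₀) : ℂ)⁻¹ *
      ∑ s : MulAction.stabilizer G x₀, f (s.1⁻¹ • p) := by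
  unfold eOp
  rw [LinearMap.smul_apply, Pi.smul_apply, smul_eq_mul, LinearMap.sum_apply, Finset.sum_apply]
  rfl

omit h in
theorem eOp_comm (θ : Z →* ℂˣ) : eOp (G := G) x₀ * piOp Ω θ = piOp Ω θ * eOp (G := G) x₀ := by
  unfold eOp
  rw [smul_mul_assoc, mul_smul_comm, Finset.sum_mul, Finset.mul_sum]
  congr 1
  exact Finset.sum_congr rfl fun s _ => comm_piOp θ s.1

omit h in
theorem eOp_invariant (f : Ω → ℂ) (k : G) (hk : k ∈ MulAction.stabilizer G x₀) (p : Ω) :
    eOp (G := G) x₀ f (k⁻¹ • p) = eOp (G := G) x₀ f p := by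
  rw [eOp_apply, eOp_apply]
  congr 1
  refine Fintype.sum_equiv (Equiv.mulLeft (⟨k, hk⟩ : MulAction.stabilizer G x₀)) _ _ fun g => ?_
  simp [mul_smul]

omit h in
theorem eOp_of_invariant {f : Ω → ℂ} (hf : ∀ k ∈ MulAction.stabilizer G x₀, ∀ p, f (k⁻¹ • p) = f p) :
    eOp (G := G) x₀ f = f := by
  funext p
  rw [eOp_apply]
  have e : ∀ s : MulAction.stabilizer G x₀, f (s.1⁻¹ • p) = f p := fun s => hf s.1 s.2 p
  simp only [e, Finset.sum_const, Finset.card_univ, nsmul_eq_mul]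
  rw [← mul_assoc, inv_mul_cancel₀ (card_S_ne x₀), one_mul]

omit h in
theorem eOp_idem : eOp (G := G) x₀ * eOp (G := G) x₀ = eOp (G := G) x₀ := by
  apply LinearMap.ext
  intro f
  rw [Module.End.mul_apply]
  exact eOp_of_invariant x₀ fun k hk p => eOp_invariant x₀ f k hk p

omit h in
theorem mul_eOp_permMon (g : G) : permMon G Ω g * eOp (G := G) x₀ =
    (Fintype.card (MulAction.stabilizer G x₀) : ℂ)⁻¹ •
      ∑ s : MulAction.stabilizer G x₀, permMon G Ω (g * s.1) := by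
  unfold eOp
  rw [mul_smul_comm, Finset.mul_sum]
  simp only [map_mul]

/-- The action of `g₀` on stabilizer invariants of `U θ`. -/
theorem GoodAct.permMon_invariant {θ : Z →* ℂˣ} {w : Ω → ℂ} (hwU : w ∈ UU Ω θ)
    (hw : ∀ s ∈ MulAction.stabilizer G x₀, ∀ x, w (s⁻¹ • x) = w x) {g₀ : G} {γ : Z}
    (hg₀ : g₀ • x₀ = γ • x₀) (p : Ω) : w (g₀⁻¹ • p) = (th θ γ)⁻¹ * w p := by
  have hinv : g₀⁻¹ • x₀ = γ⁻¹ • x₀ := by
    rw [inv_smul_eq_iff, smul_comm, hg₀, inv_smul_smul]
  by_cases hp : ∃ τ : Z, p = τ • x₀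
  · obtain ⟨τ, rfl⟩ := hp
    rw [smul_comm, hinv, ← mul_smul, mul_comm, mul_smul, hwU.1]
    have : th θ γ⁻¹ = (th θ γ)⁻¹ := by simp [th]
    rw [this]
  · push Not at hp
    have hp2 : ∀ τ : Z, g₀⁻¹ • p ≠ τ • x₀ := by
      intro τ hc
      apply hp (τ * γ)
      have : p = g₀ • (τ • x₀) := by rw [← hc, smul_inv_smul]
      rw [this, smul_comm, hg₀, ← mul_smul]
    by_cases hθ : θ = 1
    · subst hθ
      rw [th_one_left, inv_one, one_mul]
      exact h.const_of_stab hw hp2 hp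
    · rw [h.vanish_of_ne hθ hwU hw hp2, h.vanish_of_ne hθ hwU hw hp, mul_zero]

theorem GoodAct.mul_tester (θ : Z →* ℂˣ) {g₀ : G} {γ : Z} (hg₀ : g₀ • x₀ = γ • x₀) :
    permMon G Ω g₀ * (eOp (G := G) x₀ * piOp Ω θ) = (th θ γ)⁻¹ • (eOp (G := G) x₀ * piOp Ω θ) := by
  have : Nonempty Ω := h.nonempty
  apply LinearMap.ext
  intro f
  funext p
  rw [Module.End.mul_apply, permMon_apply, LinearMap.smul_apply, Pi.smul_apply, smul_eq_mul]
  refine h.permMon_invariant x₀ ?_ ?_ hg₀ p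
  · rw [eOp_comm, Module.End.mul_apply]
    exact piOp_mem θ _
  · intro s hs x
    exact eOp_invariant x₀ _ s hs x

theorem GoodAct.tester_sum (θ : Z →* ℂˣ) {g₀ : G} {γ : Z} (hg₀ : g₀ • x₀ = γ • x₀) :
    (Fintype.card (MulAction.stabilizer G x₀) : ℂ)⁻¹ *
        ∑ s : MulAction.stabilizer G x₀, chi Ω θ (g₀ * s.1) =
      (th θ γ)⁻¹ * LinearMap.trace ℂ (Ω → ℂ) (eOp (G := G) x₀ * piOp Ω θ) := by
  have h1 := h.mul_tester x₀ θ hg₀
  have h2 := congrArg (LinearMap.trace ℂ (Ω → ℂ)) h1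
  rw [map_smul, smul_eq_mul, ← mul_assoc, mul_eOp_permMon, smul_mul_assoc, map_smul, smul_eq_mul,
    Finset.sum_mul, map_sum] at h2
  exact h2

theorem GoodAct.tester_ne (θ : Z →* ℂˣ) :
    LinearMap.trace ℂ (Ω → ℂ) (eOp (G := G) x₀ * piOp Ω θ) ≠ 0 := by
  classical
  have : Nonempty Ω := h.nonempty
  intro h0
  have hid : (eOp (G := G) x₀ * piOp Ω θ) * (eOp (G := G) x₀ * piOp Ω θ) =
      eOp (G := G) x₀ * piOp Ω θ := by
    rw [mul_assoc, ← mul_assoc (piOp Ω θ), ← eOp_comm, mul_assoc, piOp_idem, ← mul_assoc, eOp_idem]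
  have h3 := LinearMap.IsIdempotentElem.eq_zero_of_trace_eq_zero hid h0
  obtain ⟨f, hf, hfx⟩ := h.exists_mem_ne θ x₀
  have h4 : (eOp (G := G) x₀ * piOp Ω θ) f x₀ = f x₀ := by
    rw [Module.End.mul_apply, piOp_of_mem hf, eOp_apply]
    have e : ∀ s : MulAction.stabilizer G x₀, f (s.1⁻¹ • x₀) = f x₀ := by
      intro s
      congr 1
      exact MulAction.mem_stabilizer_iff.mp (inv_mem s.2)
    simp only [e, Finset.sum_const, Finset.card_univ, nsmul_eq_mul]
    rw [← mul_assoc, inv_mul_cancel₀ (card_S_ne x₀), one_mul]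
  rw [h3] at h4
  exact hfx (by simpa using h4.symm)

end tester

/-- Injectivity. -/
theorem GoodAct.chi_injective : Function.Injective (fun θ : Z →* ℂˣ => chi (G := G) Ω θ) := by
  classical
  intro θ θ' hc
  simp only at hc
  obtain ⟨x₀, _, _⟩ := h.exi
  let _ : Fintype (MulAction.stabilizer G x₀) := Fintype.ofFinite _
  have e : ∀ (g₀ : G) (γ : Z), g₀ • x₀ = γ • x₀ →
      (th θ γ)⁻¹ * LinearMap.trace ℂ (Ω → ℂ) (eOp (G := G) x₀ * piOp Ω θ) =
      (th θ' γ)⁻¹ * LinearMap.trace ℂ (Ω → ℂ) (eOp (G := G) x₀ * piOp Ω θ') := by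
    intro g₀ γ hg₀
    rw [← h.tester_sum x₀ θ hg₀, ← h.tester_sum x₀ θ' hg₀, hc]
  have e1 := e 1 1 (by simp)
  simp only [th_one, inv_one, one_mul] at e1
  apply MonoidHom.ext
  intro γ
  apply Units.ext
  obtain ⟨g₀, hg₀⟩ := h.trans x₀ (γ • x₀)
  have e2 := e g₀ γ hg₀
  rw [← e1] at e2
  have e3 := mul_right_cancel₀ (h.tester_ne x₀ θ) e2
  exact inv_injective e3

/-- Irreducibility of the pieces. -/
theorem GoodAct.isIrr (θ : Z →* ℂˣ) : Cfsg.IsIrrCharacter G (chi (G := G) Ω θ) := by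
  classical
  have : Nonempty Ω := h.nonempty
  obtain ⟨x₀, _, _⟩ := h.exi
  have hd0 : 0 < Module.finrank ℂ (LinearMap.range (piOp Ω θ)) := by
    rw [Module.finrank_pos_iff, range_piOp]
    obtain ⟨f, hf, hfx⟩ := h.exists_mem_ne θ x₀
    refine ⟨⟨⟨f, hf⟩, 0, ?_⟩⟩
    intro hc
    have := congrArg Subtype.val hc
    apply hfx
    simp only [ZeroMemClass.coe_zero] at this
    rw [this]
    rfl
  obtain ⟨ρ', h1, h2⟩ := exists_irred_char (permMon G Ω) (piOp Ω θ) (piOp_idem θ)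
    (comm_piOp θ) (by
      intro K hK hK0 hinv
      rw [range_piOp] at hK ⊢
      exact h.UU_irred θ K hK hK0 hinv) rfl hd0
  exact ⟨_, ρ', h1, funext h2⟩

end main

end abs

end Cfsg.Agent.Lib.MinDeg.SLn
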