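import Cfsg.Agent.Lib.MinDeg.SLn.ClaimA

/-!
# The central idempotent generated by a rank one projection

For a subgroup `H`, a rank one idempotent `P` such that everything commuting with `H` commutes with
`P`, the `H`-span of `P` has an `H`-equivariant idempotent `π` on which every operator commuting with
`H` acts as the scalar `tr (P T)`.
-/

set_option autoImplicit false
set_option linter.unusedSectionVars false
set_option linter.unusedSimpArgs false
set_option linter.unusedVariables false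

namespace Cfsg.Agent.Lib.MinDeg.SLn

variable {G : Type*} [Group G]
variable {U : Type*} [AddCommGroup U] [Module ℂ U] [FiniteDimensional ℂ U]

local notation "tr" => LinearMap.trace ℂ U

theorem exists_pi0 (ρ : G →* Module.End ℂ U) (H : Subgroup G) [Fintype H] {P : Module.End ℂ U}
    (hP : P * P = P) (ht : tr P = 1)
    (hcomm : ∀ T : Module.End ℂ U, (∀ h ∈ H, ρ h * T = T * ρ h) → T * P = P * T) :
    ∃ π : Module.End ℂ U, π * π = π ∧ (∀ h ∈ H, ρ h * π = π * ρ h) ∧ π * P = P ∧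
      (∀ r : G, (∀ h ∈ H, ρ r * (ρ h * P) = ρ h * P) → ρ r * π = π) ∧
      ∀ T : Module.End ℂ U, (∀ h ∈ H, ρ h * T = T * ρ h) → T * π = tr (P * T) • π := by
  classical
  have hinv : ∀ g : G, ρ g⁻¹ * ρ g = 1 := fun g => by rw [← map_mul, inv_mul_cancel, map_one]
  have hinv' : ∀ g : G, ρ g * ρ g⁻¹ = 1 := fun g => by rw [← map_mul, mul_inv_cancel, map_one]
  set Θ : Module.End ℂ U := ∑ h : H, ρ h.1 * P * ρ h.1⁻¹ with hΘ
  have hΘk : ∀ k ∈ H, ρ k * Θ = Θ * ρ k := by
    intro k hk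
    have e : ρ k * Θ * ρ k⁻¹ = Θ := by
      rw [hΘ, Finset.mul_sum, Finset.sum_mul]
      refine Fintype.sum_equiv (Equiv.mulLeft (⟨k, hk⟩ : H)) _ _ fun h => ?_
      simp only [Equiv.coe_mulLeft, Subgroup.coe_mul, mul_inv_rev, map_mul]
      simp only [mul_assoc]
    calc ρ k * Θ = ρ k * Θ * (ρ k⁻¹ * ρ k) := by rw [hinv, mul_one]
      _ = (ρ k * Θ * ρ k⁻¹) * ρ k := by simp only [mul_assoc]
      _ = Θ * ρ k := by rw [e]
  have hsc : ∀ T : Module.End ℂ U, (∀ h ∈ H, ρ h * T = T * ρ h) → T * P = tr (P * T) • P := by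
    intro T hT
    rw [← sandwich hP ht T, mul_assoc, hcomm T hT, ← mul_assoc, hP]
  have hTΘ : ∀ T : Module.End ℂ U, (∀ h ∈ H, ρ h * T = T * ρ h) → T * Θ = tr (P * T) • Θ := by
    intro T hT
    rw [hΘ, Finset.mul_sum, Finset.smul_sum]
    refine Finset.sum_congr rfl fun h _ => ?_
    calc T * (ρ h.1 * P * ρ h.1⁻¹) = (T * ρ h.1) * P * ρ h.1⁻¹ := by simp only [mul_assoc]
      _ = ρ h.1 * (T * P) * ρ h.1⁻¹ := by rw [← hT h.1 h.2]; simp only [mul_assoc]
      _ = tr (P * T) • (ρ h.1 * P * ρ h.1⁻¹) := by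
          rw [hsc T hT, mul_smul_comm, smul_mul_assoc]
  set κ := tr (P * Θ) with hκ
  have hΘΘ : Θ * Θ = κ • Θ := hTΘ Θ hΘk
  have hΘtr : tr Θ = (Fintype.card H : ℂ) := by
    rw [hΘ, map_sum]
    have : ∀ h : H, tr (ρ h.1 * P * ρ h.1⁻¹) = 1 := by
      intro h
      rw [LinearMap.trace_mul_comm, ← mul_assoc, hinv, one_mul, ht]
    simp only [this]
    simp
  have hcard : (Fintype.card H : ℂ) ≠ 0 := Nat.cast_ne_zero.mpr Fintype.card_ne_zero
  have hκ0 : κ ≠ 0 := by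
    intro h0
    have h1 : Θ * Θ = 0 := by rw [hΘΘ, h0, zero_smul]
    have h2 : IsNilpotent Θ := ⟨2, by rw [pow_two, h1]⟩
    have h3 := LinearMap.isNilpotent_trace_of_isNilpotent h2
    rw [hΘtr] at h3
    exact hcard h3.eq_zero
  refine ⟨κ⁻¹ • Θ, ?_, ?_, ?_, ?_, ?_⟩
  · rw [smul_mul_smul_comm, hΘΘ, smul_smul]
    congr 1
    field_simp
  · intro h hh
    rw [mul_smul_comm, smul_mul_assoc, hΘk h hh]
  · rw [smul_mul_assoc, hsc Θ hΘk, smul_smul, inv_mul_cancel₀ hκ0, one_smul]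
  · intro r hr
    rw [mul_smul_comm]
    congr 1
    rw [hΘ, Finset.mul_sum]
    refine Finset.sum_congr rfl fun h _ => ?_
    rw [← mul_assoc, hr h.1 h.2]
  · intro T hT
    rw [mul_smul_comm, hTΘ T hT, smul_comm]

end Cfsg.Agent.Lib.MinDeg.SLn
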